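import Cfsg.Agent.H351.CovF4.CountZ

/-!
# The contradictions (helper351, for S2499)
-/

set_option autoImplicit false
set_option maxHeartbeats 1000000

namespace Cfsg.Agent.H351.CovF4

section Twelve

variable {q n D : ℤ} (hq : q = 2 ∨ 4 ≤ q) (hn : n = 1 ∨ n = 2 ∨ n = 3 ∨ n = 4 ∨ n = 6 ∨ n = 12)

include hq hn

theorem f12_psl2 (hd : q ^ 4 - q ^ 2 + 1 ∣ n - (2 * q ^ 2 + 2)) : False := by
  rcases hq with rfl | h4
  · norm_num at hd
    rcases hn with rfl | rfl | rfl | rfl | rfl | rfl <;> norm_num at hd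
  · have h16 : 16 ≤ q ^ 2 := by nlinarith
    have e : q ^ 4 = q ^ 2 * q ^ 2 := by ring
    rw [e] at hd
    generalize q ^ 2 = s at h16 hd
    refine no_dvd' hd ?_ ?_
    · omega
    · nlinarith [show 1 ≤ n by omega]

theorem f12_psl3 (hD : D = 1 ∨ D = 3) (hd : q ^ 4 - q ^ 2 + 1 ∣ D * n - (6 * q ^ 2)) : False := by
  rcases hq with rfl | h4
  · norm_num at hd
    rcases hD with rfl | rfl <;> rcases hn with rfl | rfl | rfl | rfl | rfl | rfl <;> norm_num at hd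
  · have h16 : 16 ≤ q ^ 2 := by nlinarith
    have e : q ^ 4 = q ^ 2 * q ^ 2 := by ring
    rw [e] at hd
    generalize q ^ 2 = s at h16 hd
    rcases hD with rfl | rfl
    · refine no_dvd' hd ?_ ?_
      · omega
      · nlinarith [show 1 ≤ n by omega]
    · refine no_dvd' hd ?_ ?_
      · omega
      · nlinarith [show 1 ≤ n by omega]

theorem f12_psp2 (hd : q ^ 4 - q ^ 2 + 1 ∣ n - (4 * q ^ 2 + 4)) : False := by
  rcases hq with rfl | h4
  · norm_num at hd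
    rcases hn with rfl | rfl | rfl | rfl | rfl | rfl <;> norm_num at hd
  · have h16 : 16 ≤ q ^ 2 := by nlinarith
    have e : q ^ 4 = q ^ 2 * q ^ 2 := by ring
    rw [e] at hd
    generalize q ^ 2 = s at h16 hd
    refine no_dvd' hd ?_ ?_
    · omega
    · nlinarith [show 1 ≤ n by omega]

theorem f12_eq {m : ℤ} (hm : m = 3 ∨ m = 6 ∨ m = 4) (hd : q ^ 4 - q ^ 2 + 1 ∣ n - m) : n = m := by
  by_contra hne
  have hM : 13 ≤ q ^ 4 - q ^ 2 + 1 := by
    have e : q ^ 4 = q ^ 2 * q ^ 2 := by ring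
    rcases hq with rfl | h4
    · norm_num
    · have h16 : 16 ≤ q ^ 2 := by nlinarith
      rw [e]
      nlinarith
  rcases lt_or_gt_of_ne hne with h | h
  · exact no_dvd' hd (by omega) (by omega)
  · exact no_dvd hd (by omega) (by omega)

theorem f12_sz (hd : q ^ 4 - q ^ 2 + 1 ∣ n - (-2 * q ^ 3 + q ^ 2 + q + 1)) : q = 2 ∧ n = 4 := by
  rcases hq with rfl | h4
  · refine ⟨rfl, ?_⟩
    norm_num at hd
    rcases hn with rfl | rfl | rfl | rfl | rfl | rfl <;> norm_num at hd <;> rfl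
  · exfalso
    have e : q ^ 4 = q * q ^ 3 := by ring
    have h3 : q ^ 3 = q * q ^ 2 := by ring
    have h2 : q ^ 2 = q * q := by ring
    have h16 : 4 * q ≤ q ^ 2 := by nlinarith
    have h17 : 4 * q ^ 2 ≤ q ^ 3 := by nlinarith
    have h18 : 4 * q ^ 3 ≤ q ^ 4 := by nlinarith
    refine no_dvd hd ?_ ?_
    · omega
    · omega

omit hq in
theorem f12_tf4 (h8 : 4 ≤ q) (hd : q ^ 4 - q ^ 2 + 1 ∣ n - (3 * q ^ 3 - 3 * q ^ 2 - 3 * q + 6)) : False := by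
  have e : q ^ 4 = q * q ^ 3 := by ring
  have h3 : q ^ 3 = q * q ^ 2 := by ring
  have h2 : q ^ 2 = q * q := by ring
  have h16 : 4 * q ≤ q ^ 2 := by nlinarith
  have h17 : 4 * q ^ 2 ≤ q ^ 3 := by nlinarith
  have h18 : 4 * q ^ 3 ≤ q ^ 4 := by nlinarith
  refine no_dvd' hd ?_ ?_
  · omega
  · omega

end Twelve

section Eight

variable {q n D : ℤ} (hq : q = 2 ∨ 4 ≤ q) (hn : n = 1 ∨ n = 2 ∨ n = 4 ∨ n = 8)

include hq hn

theorem f8_psl3 (hD : D = 1 ∨ D = 3) (hd : q ^ 4 + 1 ∣ D * n - -4) : False := by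
  rcases hq with rfl | h4
  · norm_num at hd
    rcases hD with rfl | rfl <;> rcases hn with rfl | rfl | rfl | rfl <;> norm_num at hd
  · have h16 : 16 ≤ q ^ 2 := by nlinarith
    have e : q ^ 4 = q ^ 2 * q ^ 2 := by ring
    rw [e] at hd
    generalize q ^ 2 = s at h16 hd
    rcases hD with rfl | rfl
    · refine no_dvd hd ?_ ?_
      · omega
      · nlinarith [show n ≤ 8 by omega]
    · refine no_dvd hd ?_ ?_
      · omega
      · nlinarith [show n ≤ 8 by omega]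

theorem f8_psl4 (hd : q ^ 4 + 1 ∣ n - (4 * q ^ 2 + 4)) : False := by
  rcases hq with rfl | h4
  · norm_num at hd
    rcases hn with rfl | rfl | rfl | rfl <;> norm_num at hd
  · have h16 : 16 ≤ q ^ 2 := by nlinarith
    have e : q ^ 4 = q ^ 2 * q ^ 2 := by ring
    rw [e] at hd
    generalize q ^ 2 = s at h16 hd
    refine no_dvd' hd ?_ ?_
    · omega
    · nlinarith [show 1 ≤ n by omega]

theorem f8_eq {m : ℤ} (hm : m = 2 ∨ m = 4 ∨ m = 8) (hd : q ^ 4 + 1 ∣ n - m) : n = m := by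
  by_contra hne
  have hM : 17 ≤ q ^ 4 + 1 := by
    have e : q ^ 4 = q ^ 2 * q ^ 2 := by ring
    rcases hq with rfl | h4
    · norm_num
    · have h16 : 16 ≤ q ^ 2 := by nlinarith
      rw [e]
      nlinarith
  rcases lt_or_gt_of_ne hne with h | h
  · exact no_dvd' hd (by omega) (by omega)
  · exact no_dvd hd (by omega) (by omega)

theorem f8_oplus5 (hd : q ^ 4 + 1 ∣ n - (8 * q + 8)) : False := by
  rcases hq with rfl | h4
  · norm_num at hd
    rcases hn with rfl | rfl | rfl | rfl <;> norm_num at hd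
  · have h16 : 4 * q ≤ q ^ 2 := by nlinarith
    have e : q ^ 4 = q ^ 2 * q ^ 2 := by ring
    refine no_dvd' hd ?_ ?_
    · omega
    · nlinarith [show 1 ≤ n by omega]

end Eight

section EightR

variable {r n D : ℤ} (hr : 2 ≤ r) (hn : n = 1 ∨ n = 2 ∨ n = 4 ∨ n = 8)

include hr

theorem pow4_ge : 16 ≤ r ^ 4 := by
  have h4 : 4 ≤ r ^ 2 := by nlinarith
  have e : r ^ 4 = r ^ 2 * r ^ 2 := by ring
  rw [e]
  nlinarith

include hn

theorem f8_psu3 (hd : r ^ 12 + 1 ∣ n - (-r ^ 8 + 1)) : False := by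
  have h1 := pow4_ge hr
  have e1 : r ^ 12 = r ^ 4 * (r ^ 4 * r ^ 4) := by ring
  have e2 : r ^ 8 = r ^ 4 * r ^ 4 := by ring
  rw [e1, e2] at hd
  generalize r ^ 4 = s at h1 hd
  have h2 : 16 * s ≤ s * s := by nlinarith
  have h3 : 16 * (s * s) ≤ s * (s * s) := by nlinarith
  have hn1 : 1 ≤ n := by omega
  have hn8 : n ≤ 8 := by omega
  refine no_dvd hd ?_ ?_
  · linarith
  · linarith

theorem f8_g2 (hd : r ^ 12 + 1 ∣ n - (-2 * r ^ 8 + 2)) : False := by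
  have h1 := pow4_ge hr
  have e1 : r ^ 12 = r ^ 4 * (r ^ 4 * r ^ 4) := by ring
  have e2 : r ^ 8 = r ^ 4 * r ^ 4 := by ring
  rw [e1, e2] at hd
  generalize r ^ 4 = s at h1 hd
  have h2 : 16 * s ≤ s * s := by nlinarith
  have h3 : 16 * (s * s) ≤ s * (s * s) := by nlinarith
  have hn1 : 1 ≤ n := by omega
  have hn8 : n ≤ 8 := by omega
  refine no_dvd hd ?_ ?_
  · linarith
  · linarith

omit hn in
/-- `³D₄(r²)` -/
theorem f8_td4 {k c : ℤ} (hc : c = n * (r ^ 12 + 1) * (1 + k * (r ^ 12 + 1)))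
    (h : c = (r ^ 2) ^ 12 * (((r ^ 2) ^ 2 - 1) * ((r ^ 2) ^ 6 - 1) * ((r ^ 2) ^ 8 + (r ^ 2) ^ 4 + 1))) : False := by
  have h1 := pow4_ge hr
  generalize hs : r ^ 4 = s at h1
  have e1 : r ^ 12 = s ^ 3 := by rw [← hs]; ring
  have e2 : (r ^ 2) ^ 12 * (((r ^ 2) ^ 2 - 1) * ((r ^ 2) ^ 6 - 1) * ((r ^ 2) ^ 8 + (r ^ 2) ^ 4 + 1)) =
      s ^ 6 * ((s - 1) * (s ^ 3 - 1) * (s ^ 4 + s ^ 2 + 1)) := by rw [← hs]; ring
  rw [e2] at h
  rw [e1] at hc
  have hd : s + 1 ∣ 12 := by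
    have h2 : s + 1 ∣ s ^ 6 * ((s - 1) * (s ^ 3 - 1) * (s ^ 4 + s ^ 2 + 1)) := by
      rw [← h, hc]
      exact ⟨n * (s ^ 2 - s + 1) * (1 + k * (s ^ 3 + 1)), by ring⟩
    have h3 : s + 1 ∣ s ^ 6 * ((s - 1) * (s ^ 3 - 1) * (s ^ 4 + s ^ 2 + 1)) - 12 := ⟨s ^ 13 - 2 * s ^ 12 + 3 * s ^ 11 - 5 * s ^ 10 + 7 * s ^ 9 - 9 * s ^ 8 + 10 * s ^ 7 - 11 * s ^ 6 + 12 * s ^ 5 - 12 * s ^ 4 + 12 * s ^ 3 - 12 * s ^ 2 + 12 * s - 12, by ring⟩
    have := dvd_sub h2 h3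
    rwa [sub_sub_cancel] at this
  have := Int.le_of_dvd (by norm_num) hd
  omega

end EightR

end Cfsg.Agent.H351.CovF4
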