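import Cfsg.Agent.H351.CovF4.OrdZ
import Cfsg.Agent.H351.CovF4.FinZ

/-!
# The names in characteristic 2 (helper351, for S2499)

`charp12`, `charp8` : a simple group of Lie type in characteristic 2 of order `c = n M (1 + k M)`, `M = Φ₁₂(q)`, `n ∣ 12`
(`M = Φ₈(q)`, `n ∣ 8`), whose order divides `|F₄(q)|`, `q = 2 ^ f`.
-/

set_option autoImplicit false
set_option maxHeartbeats 1000000

namespace Cfsg.Agent.H351.CovF4

open Cfsg.Agent.OrdDiv Cfsg.Agent.H436 Cfsg.Agent.H915.GN Cfsg.Agent.H264.GN Cfsg.Agent.H264.FKS Cfsg.Agent.H325.Same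

/-- the data for the `kill4` -/
theorem exists_four {f c : ℕ} (hf : 1 ≤ f) (hdvd : c ∣ num (.f4 (2 ^ f))) : ∃ s y, Prim (2 ^ f) 4 s ∧ ¬ s ∣ y ∧ 0 < y ∧
    c ∣ (2 ^ f) ^ 24 * (y * (((2 ^ f) ^ 8 - 1) * ((2 ^ f) ^ 12 - 1))) := by
  have hq : 2 ≤ 2 ^ f := Nat.le_self_pow (by omega) _
  obtain ⟨s, hs4⟩ := exists_prim (q := 2 ^ f) (e := 4) hq (by norm_num) (by omega)
  have hd : c ∣ (2 ^ f) ^ 24 * (((2 ^ f) ^ 2 - 1) * ((2 ^ f) ^ 6 - 1) * ((2 ^ f) ^ 8 - 1) * ((2 ^ f) ^ 12 - 1)) := hdvd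
  have b2 := sub_pos' (d := 2) hq (by norm_num)
  have b6 := sub_pos' (d := 6) hq (by norm_num)
  refine ⟨s, ((2 ^ f) ^ 2 - 1) * ((2 ^ f) ^ 6 - 1), hs4, fun h => ?_, Nat.mul_pos b2 b6, ?_⟩
  · rcases hs4.prime.dvd_mul.1 h with h | h
    · exact hs4.not_dvd_sub (by norm_num) h
    · exact hs4.not_dvd_sub (by norm_num) h
  · refine hd.trans (dvd_of_eq ?_)
    ring

/-- **The names, class 12.** -/
theorem charp12 {f n k c : ℕ} {g : Grp} (hf : 1 ≤ f) (hn : n ∣ 12) (hg : Cond g) (hch : HasChar 2 g)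
    (hcg : den g * c = num g) (hdvd : c ∣ num (.f4 (2 ^ f)))
    (hc : c = n * ((2 ^ f) ^ 4 - (2 ^ f) ^ 2 + 1) * (1 + k * ((2 ^ f) ^ 4 - (2 ^ f) ^ 2 + 1)))
    (hs : ∀ s, Prim 2 (f * 12) s → s ∣ c) :
    g = .f4 (2 ^ f) ∨ (g = .psu 3 ((2 ^ f) ^ 2) ∧ n = 3) ∨ (g = .g2 ((2 ^ f) ^ 2) ∧ n = 6) ∨ (g = .td4 (2 ^ f) ∧ n = 4) ∨
      (f = 1 ∧ g = .sz 8 ∧ n = 4) := by
  obtain ⟨f₁, hf₁, hfl, hK, hY⟩ := kd_all Nat.prime_two hg hch hcg
  obtain ⟨i, hi, hei, hfM, ha, -, hYc⟩ := comp2 Nat.prime_two hf (td_f4 Nat.prime_two hf hdvd) hK hf₁ (e := 12)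
    (by norm_num) (by norm_num) hs hY
  have hi' : i ∈ [2, 6, 8, 12] := hi
  obtain rfl : i = 12 := by
    simp only [List.mem_cons, List.not_mem_nil, or_false] at hi'
    omega
  have hout := elim12 hf hf₁ hg hch hfM ha hYc
  clear hi hei hi' hYc ha hK hY
  obtain ⟨s, y, hs4, hy, hy0, hd4⟩ := exists_four hf hdvd
  have hor := two_or hf
  have hn' := n12 hn
  obtain ⟨q, hq⟩ : ∃ q, q = 2 ^ f := ⟨_, rfl⟩
  have hev : Even q := by rw [hq]; exact even_two.pow_of_ne_zero (by omega)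
  have hq2 : 2 ≤ q := by omega
  have hcZ : (c : ℤ) = n * ((q : ℤ) ^ 4 - (q : ℤ) ^ 2 + 1) * (1 + k * ((q : ℤ) ^ 4 - (q : ℤ) ^ 2 + 1)) := by
    rw [hc, ← hq]
    push_cast [cg (show 1 ≤ q by omega) (show 2 ≤ 4 by norm_num)]
    ring
  have hqZ : (2 : ℤ) ≤ q := by exact_mod_cast hq2
  have hqo : (q : ℤ) = 2 ∨ 4 ≤ (q : ℤ) := by omega
  have hnZ : (n : ℤ) = 1 ∨ (n : ℤ) = 2 ∨ (n : ℤ) = 3 ∨ (n : ℤ) = 4 ∨ (n : ℤ) = 6 ∨ (n : ℤ) = 12 := by omega
  have hM0 : (q : ℤ) ^ 4 - (q : ℤ) ^ 2 + 1 ≠ 0 := by nlinarith [sq_nonneg ((q : ℤ) ^ 2 - 1)]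
  have hpw : ∀ j, 2 ^ (f * j) = q ^ j := fun j => by rw [hq, ← pow_mul]
  have hev' : ∀ j, j ≠ 0 → Even (q ^ j) := fun j hj => hev.pow_of_ne_zero hj
  have hle : ∀ j, j ≠ 0 → 2 ≤ q ^ j := fun j hj => hq2.trans (Nat.le_self_pow hj q)
  cases g <;> try exact (show False from hout).elim
  case psl m Q =>
    exfalso
    obtain rfl : Q = 2 ^ f₁ := hfl
    have h5 : f₁ * m = f * 12 := hfM
    rcases (show m = 2 ∨ m = 3 from hout) with rfl | rfl
    · obtain rfl : f₁ = f * 6 := by omega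
      rw [hpw] at hcg
      have hz := z_psl2 (hle 6 (by norm_num)) (hev' 6 (by norm_num)) hcg
      rw [Nat.cast_pow] at hz
      exact f12_psl2 hqo hnZ (d12_psl2 hM0 hcZ hz)
    · obtain rfl : f₁ = f * 4 := by omega
      rw [hpw] at hcg
      obtain ⟨D, hD, hz⟩ := z_psl3 (hle 4 (by norm_num)) hcg
      rw [Nat.cast_pow] at hz
      exact f12_psl3 hqo hnZ hD (d12_psl3 hM0 hcZ hz)
  case psp m Q =>
    exfalso
    obtain rfl : Q = 2 ^ f₁ := hfl
    have h5 : f₁ * (2 * m) = f * 12 := hfM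
    rcases (show m = 2 ∨ m = 3 from hout) with rfl | rfl
    · obtain rfl : f₁ = f * 3 := by omega
      rw [hpw] at hcg
      have hz := z_psp2 (hle 3 (by norm_num)) (hev' 3 (by norm_num)) hcg
      rw [Nat.cast_pow] at hz
      exact f12_psp2 hqo hnZ (d12_psp2 hM0 hcZ hz)
    · obtain rfl : f₁ = f * 2 := by omega
      exact kill4_psp Nat.prime_two hf hs4 hy hy0 hd4 hcg
  case psu m Q =>
    obtain rfl : Q = 2 ^ f₁ := hfl
    rcases (show m = 3 ∨ m = 4 from hout) with rfl | rfl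
    · have h5 : f₁ * 6 = f * 12 := hfM
      obtain rfl : f₁ = f * 2 := by omega
      rw [hpw] at hcg
      obtain ⟨D, hD, hD1, hz⟩ := z_psu3 (hle 2 (by norm_num)) hcg
      have hD' : D = 1 := hD1 (by
        intro h3
        have h4 : q ^ 2 % 3 = 0 ∨ q ^ 2 % 3 = 1 := by
          have : q % 3 = 0 ∨ q % 3 = 1 ∨ q % 3 = 2 := by omega
          rcases this with h | h | h <;> simp [Nat.pow_mod, h]
        omega)
      rw [Nat.cast_pow, hD'] at hz
      have hd := d12_psu3 hM0 hcZ hz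
      rw [one_mul] at hd
      have h6 := f12_eq hqo hnZ (Or.inl rfl) hd
      right; left
      rw [hpw, ← hq]
      exact ⟨rfl, by exact_mod_cast h6⟩
    · exfalso
      have h5 : f₁ * 6 = f * 12 := hfM
      obtain rfl : f₁ = f * 2 := by omega
      exact kill4_psu Nat.prime_two hf hs4 hy hy0 hd4 hcg
  case oplus m Q =>
    exfalso
    obtain rfl : Q = 2 ^ f₁ := hfl
    obtain rfl : m = 4 := hout
    have h5 : f₁ * 6 = f * 12 := hfM
    obtain rfl : f₁ = f * 2 := by omega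
    exact kill4_oplus Nat.prime_two hf hs4 hy hy0 hd4 hcg
  case g2 Q =>
    obtain rfl : Q = 2 ^ f₁ := hfl
    have h5 : f₁ * 6 = f * 12 := hfM
    obtain rfl : f₁ = f * 2 := by omega
    rw [hpw] at hcg
    have hz := z_g2 (hle 2 (by norm_num)) hcg
    rw [Nat.cast_pow] at hz
    have h6 := f12_eq hqo hnZ (Or.inr (Or.inl rfl)) (d12_g2 hM0 hcZ hz)
    right; right; left
    rw [hpw, ← hq]
    exact ⟨rfl, by exact_mod_cast h6⟩
  case td4 Q =>
    obtain rfl : Q = 2 ^ f₁ := hfl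
    have h5 : f₁ * 12 = f * 12 := hfM
    obtain rfl : f₁ = f := by omega
    have hz := z_td4 (by omega) hcg
    rw [← hq] at hz
    have h6 := f12_eq hqo hnZ (Or.inr (Or.inr rfl)) (d12_td4 hM0 hcZ hz)
    right; right; right; left
    exact ⟨rfl, by exact_mod_cast h6⟩
  case tf4 Q =>
    exfalso
    obtain rfl : Q = 2 ^ f₁ := hfl
    have h5 : f₁ * 12 = f * 12 := hfM
    obtain rfl : f₁ = f := by omega
    obtain ⟨m, hm, hm2⟩ := hg
    have h7 : f₁ = 2 * m + 1 := Nat.pow_right_injective le_rfl hm2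
    have h8 : 2 ^ 2 ≤ 2 ^ f₁ := Nat.pow_le_pow_right (by norm_num) (by omega)
    have hz := z_tf4 (by omega) hcg
    rw [← hq] at hz
    exact f12_tf4 hnZ (by omega) (d12_tf4 hM0 hcZ hz)
  case f4 Q =>
    left
    obtain rfl : Q = 2 ^ f₁ := hfl
    have h5 : f₁ * 12 = f * 12 := hfM
    obtain rfl : f₁ = f := by omega
    rfl
  case sz Q =>
    obtain rfl : Q = 2 ^ f₁ := hfl
    have h5 : f₁ * 4 = f * 12 := hfM
    obtain rfl : f₁ = f * 3 := by omega
    rw [hpw] at hcg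
    have hz := z_sz (hle 3 (by norm_num)) hcg
    rw [Nat.cast_pow] at hz
    obtain ⟨h6, h7⟩ := f12_sz hqo hnZ (d12_sz hM0 hcZ hz)
    have h8 : q = 2 := by exact_mod_cast h6
    have h9 : f = 1 := by
      by_contra hne
      have : 2 ^ 2 ≤ 2 ^ f := Nat.pow_le_pow_right (by norm_num) (by omega)
      omega
    right; right; right; right
    subst h9
    exact ⟨rfl, rfl, by exact_mod_cast h7⟩

/-- **The names, class 8.** -/
theorem charp8 {f n k c : ℕ} {g : Grp} (hf : 1 ≤ f) (hn : n ∣ 8) (hg : Cond g) (hch : HasChar 2 g)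
    (hcg : den g * c = num g) (hdvd : c ∣ num (.f4 (2 ^ f)))
    (hc : c = n * ((2 ^ f) ^ 4 + 1) * (1 + k * ((2 ^ f) ^ 4 + 1)))
    (hs : ∀ s, Prim 2 (f * 8) s → s ∣ c) :
    g = .f4 (2 ^ f) ∨ (g = .psl 2 ((2 ^ f) ^ 4) ∧ n = 2) ∨ (g = .psp 2 ((2 ^ f) ^ 2) ∧ n = 4) ∨
      (g = .psp 4 (2 ^ f) ∧ n = 8) ∨ (g = .ominus 4 (2 ^ f) ∧ n = 4) := by
  obtain ⟨f₁, hf₁, hfl, hK, hY⟩ := kd_all Nat.prime_two hg hch hcg
  obtain ⟨i, hi, hei, hfM, ha, hX, hYc⟩ := comp2 Nat.prime_two hf (td_f4 Nat.prime_two hf hdvd) hK hf₁ (e := 8)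
    (by norm_num) (by norm_num) hs hY
  have hX8 := hX 8 (by omega) (by omega) hs
  have hi' : i ∈ [2, 6, 8, 12] := hi
  have hi2 : i = 8 ∨ i = 12 := by
    simp only [List.mem_cons, List.not_mem_nil, or_false] at hi'
    omega
  have hout : (i = 8 ∧ Out8 g) ∨ (i = 12 ∧ Out8' g) := by
    rcases hi2 with rfl | rfl
    · exact Or.inl ⟨rfl, elim8 hf hf₁ hg hch hfM (by omega) hYc⟩
    · exact Or.inr ⟨rfl, elim8_12 hf hf₁ hg hch hfM ha hX8 hYc⟩
  clear hi hei hi' hYc ha hK hY hX hX8 hi2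
  obtain ⟨s, y, hs4, hy, hy0, hd4⟩ := exists_four hf hdvd
  have hor := two_or hf
  have hn' := n8 hn
  obtain ⟨q, hq⟩ : ∃ q, q = 2 ^ f := ⟨_, rfl⟩
  have hev : Even q := by rw [hq]; exact even_two.pow_of_ne_zero (by omega)
  have hq2 : 2 ≤ q := by omega
  have hcZ : (c : ℤ) = n * ((q : ℤ) ^ 4 + 1) * (1 + k * ((q : ℤ) ^ 4 + 1)) := by
    rw [hc, ← hq]
    push_cast
    ring
  have hqZ : (2 : ℤ) ≤ q := by exact_mod_cast hq2
  have hqo : (q : ℤ) = 2 ∨ 4 ≤ (q : ℤ) := by omega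
  have hnZ : (n : ℤ) = 1 ∨ (n : ℤ) = 2 ∨ (n : ℤ) = 4 ∨ (n : ℤ) = 8 := by omega
  have hM0 : (q : ℤ) ^ 4 + 1 ≠ 0 := by positivity
  have hpw : ∀ j, 2 ^ (f * j) = q ^ j := fun j => by rw [hq, ← pow_mul]
  have hev' : ∀ j, j ≠ 0 → Even (q ^ j) := fun j hj => hev.pow_of_ne_zero hj
  have hle : ∀ j, j ≠ 0 → 2 ≤ q ^ j := fun j hj => hq2.trans (Nat.le_self_pow hj q)
  rcases hout with ⟨rfl, hout⟩ | ⟨rfl, hout⟩
  · cases g <;> try exact (show False from hout).elim
    case psl m Q =>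
      obtain rfl : Q = 2 ^ f₁ := hfl
      have h5 : f₁ * m = f * 8 := hfM
      rcases (show m = 2 ∨ m = 4 from hout) with rfl | rfl
      · obtain rfl : f₁ = f * 4 := by omega
        rw [hpw] at hcg
        have hz := z_psl2 (hle 4 (by norm_num)) (hev' 4 (by norm_num)) hcg
        rw [Nat.cast_pow] at hz
        have h6 := f8_eq hqo hnZ (Or.inl rfl) (d8_psl2 hM0 hcZ hz)
        right; left
        rw [hpw, ← hq]
        exact ⟨rfl, by exact_mod_cast h6⟩
      · exfalso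
        obtain rfl : f₁ = f * 2 := by omega
        rw [hpw] at hcg
        have hz := z_psl4 (hle 2 (by norm_num)) (hev' 2 (by norm_num)) hcg
        rw [Nat.cast_pow] at hz
        exact f8_psl4 hqo hnZ (d8_psl4 hM0 hcZ hz)
    case psp m Q =>
      obtain rfl : Q = 2 ^ f₁ := hfl
      have h5 : f₁ * (2 * m) = f * 8 := hfM
      rcases (show m = 2 ∨ m = 4 from hout) with rfl | rfl
      · obtain rfl : f₁ = f * 2 := by omega
        rw [hpw] at hcg
        have hz := z_psp2 (hle 2 (by norm_num)) (hev' 2 (by norm_num)) hcg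
        rw [Nat.cast_pow] at hz
        have h6 := f8_eq hqo hnZ (Or.inr (Or.inl rfl)) (d8_psp2 hM0 hcZ hz)
        right; right; left
        rw [hpw, ← hq]
        exact ⟨rfl, by exact_mod_cast h6⟩
      · obtain rfl : f₁ = f := by omega
        have hz := z_psp4 (by omega) (by rw [← hq]; exact hev) hcg
        rw [← hq] at hz
        have h6 := f8_eq hqo hnZ (Or.inr (Or.inr rfl)) (d8_psp4 hM0 hcZ hz)
        right; right; right; left
        exact ⟨rfl, by exact_mod_cast h6⟩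
    case psu m Q =>
      exfalso
      obtain rfl : Q = 2 ^ f₁ := hfl
      obtain rfl : m = 3 := hout
      have h5 : f₁ * 6 = f * 8 := hfM
      obtain ⟨t, rfl⟩ : ∃ t, f = t * 3 := ⟨f / 3, by omega⟩
      obtain rfl : f₁ = t * 4 := by omega
      have hr2 : 2 ≤ 2 ^ t := Nat.le_self_pow (by omega) _
      rw [pow_mul] at hcg
      obtain ⟨D, hD, hD1, hz⟩ := z_psu3 (hr2.trans (Nat.le_self_pow (by norm_num) _)) hcg
      generalize hr : 2 ^ t = r at *
      have hqr : q = r ^ 3 := by rw [hq, pow_mul, hr]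
      have hD' : D = 1 := hD1 (by
        intro h3
        have h4 : r ^ 4 % 3 = 0 ∨ r ^ 4 % 3 = 1 := by
          have : r % 3 = 0 ∨ r % 3 = 1 ∨ r % 3 = 2 := by omega
          rcases this with h | h | h <;> simp [Nat.pow_mod, h]
        omega)
      rw [Nat.cast_pow, hD'] at hz
      have hcR : (c : ℤ) = n * ((r : ℤ) ^ 12 + 1) * (1 + k * ((r : ℤ) ^ 12 + 1)) := by
        rw [hcZ, hqr]
        push_cast
        ring
      have hd := d8_psu3 (by positivity) hcR hz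
      rw [one_mul] at hd
      exact f8_psu3 (by exact_mod_cast hr2) hnZ hd
    case oplus m Q =>
      exfalso
      obtain rfl : Q = 2 ^ f₁ := hfl
      obtain rfl : m = 5 := hout
      have h5 : f₁ * 8 = f * 8 := hfM
      obtain rfl : f₁ = f := by omega
      have hz := z_oplus5 (by omega) (by rw [← hq]; exact hev) hcg
      rw [← hq] at hz
      exact f8_oplus5 hqo hnZ (d8_oplus5 hM0 hcZ hz)
    case ominus m Q =>
      obtain rfl : Q = 2 ^ f₁ := hfl
      obtain rfl : m = 4 := hout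
      have h5 : f₁ * 8 = f * 8 := hfM
      obtain rfl : f₁ = f := by omega
      have hz := z_ominus4 (by omega) (by rw [← hq]; exact hev) hcg
      rw [← hq] at hz
      have h6 := f8_eq hqo hnZ (Or.inr (Or.inl rfl)) (d8_ominus4 hM0 hcZ hz)
      right; right; right; right
      exact ⟨rfl, by exact_mod_cast h6⟩
    case g2 Q =>
      exfalso
      obtain rfl : Q = 2 ^ f₁ := hfl
      have h5 : f₁ * 6 = f * 8 := hfM
      obtain ⟨t, rfl⟩ : ∃ t, f = t * 3 := ⟨f / 3, by omega⟩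
      obtain rfl : f₁ = t * 4 := by omega
      have hr2 : 2 ≤ 2 ^ t := Nat.le_self_pow (by omega) _
      rw [pow_mul] at hcg
      have hz := z_g2 (hr2.trans (Nat.le_self_pow (by norm_num) _)) hcg
      generalize hr : 2 ^ t = r at *
      have hqr : q = r ^ 3 := by rw [hq, pow_mul, hr]
      rw [Nat.cast_pow] at hz
      have hcR : (c : ℤ) = n * ((r : ℤ) ^ 12 + 1) * (1 + k * ((r : ℤ) ^ 12 + 1)) := by
        rw [hcZ, hqr]
        push_cast
        ring
      exact f8_g2 (by exact_mod_cast hr2) hnZ (d8_g2 (by positivity) hcR hz)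
    case td4 Q =>
      exfalso
      obtain rfl : Q = 2 ^ f₁ := hfl
      have h5 : f₁ * 12 = f * 8 := hfM
      obtain ⟨t, rfl⟩ : ∃ t, f = t * 3 := ⟨f / 3, by omega⟩
      obtain rfl : f₁ = t * 2 := by omega
      have hr2 : 2 ≤ 2 ^ t := Nat.le_self_pow (by omega) _
      rw [pow_mul] at hcg
      have hz := z_td4 (hr2.trans (Nat.le_self_pow (by norm_num) _)) hcg
      generalize hr : 2 ^ t = r at *
      have hqr : q = r ^ 3 := by rw [hq, pow_mul, hr]
      rw [Nat.cast_pow] at hz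
      have hcR : (c : ℤ) = n * ((r : ℤ) ^ 12 + 1) * (1 + k * ((r : ℤ) ^ 12 + 1)) := by
        rw [hcZ, hqr]
        push_cast
        ring
      exact f8_td4 (by exact_mod_cast hr2) hcR hz
    case tf4 Q =>
      exfalso
      obtain rfl : Q = 2 ^ f₁ := hfl
      have h5 : f₁ * 12 = f * 8 := hfM
      obtain ⟨m, hm, hm2⟩ := hg
      have h7 : f₁ = 2 * m + 1 := Nat.pow_right_injective le_rfl hm2
      omega
    case sz Q =>
      exfalso
      obtain rfl : Q = 2 ^ f₁ := hfl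
      have h5 : f₁ * 4 = f * 8 := hfM
      obtain ⟨m, hm, hm2⟩ := hg
      have h7 : f₁ = 2 * m + 1 := Nat.pow_right_injective le_rfl hm2
      omega
  · cases g <;> try exact (show False from hout).elim
    case psl m Q =>
      exfalso
      obtain rfl : Q = 2 ^ f₁ := hfl
      obtain rfl : m = 3 := hout
      have h5 : f₁ * 3 = f * 12 := hfM
      obtain rfl : f₁ = f * 4 := by omega
      rw [hpw] at hcg
      obtain ⟨D, hD, hz⟩ := z_psl3 (hle 4 (by norm_num)) hcg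
      rw [Nat.cast_pow] at hz
      exact f8_psl3 hqo hnZ hD (d8_psl3 hM0 hcZ hz)
    case psp m Q =>
      exfalso
      obtain rfl : Q = 2 ^ f₁ := hfl
      obtain rfl : m = 3 := hout
      have h5 : f₁ * (2 * 3) = f * 12 := hfM
      obtain rfl : f₁ = f * 2 := by omega
      exact kill4_psp Nat.prime_two hf hs4 hy hy0 hd4 hcg
    case psu m Q =>
      exfalso
      obtain rfl : Q = 2 ^ f₁ := hfl
      obtain rfl : m = 4 := hout
      have h5 : f₁ * 6 = f * 12 := hfM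
      obtain rfl : f₁ = f * 2 := by omega
      exact kill4_psu Nat.prime_two hf hs4 hy hy0 hd4 hcg
    case oplus m Q =>
      exfalso
      obtain rfl : Q = 2 ^ f₁ := hfl
      obtain rfl : m = 4 := hout
      have h5 : f₁ * 6 = f * 12 := hfM
      obtain rfl : f₁ = f * 2 := by omega
      exact kill4_oplus Nat.prime_two hf hs4 hy hy0 hd4 hcg
    case f4 Q =>
      left
      obtain rfl : Q = 2 ^ f₁ := hfl
      have h5 : f₁ * 12 = f * 12 := hfM
      obtain rfl : f₁ = f := by omega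
      rfl

end Cfsg.Agent.H351.CovF4
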