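import Mathlib

/-!
# Congruences for the number of Sylow tori (helper351, for S2499)
-/

set_option autoImplicit false
set_option maxHeartbeats 1000000

namespace Cfsg.Agent.H351.CovF4

/-- the congruence -/
theorem key {M n k D R c c₀ L : ℤ} (hM : M ≠ 0) (hc : c = n * M * (1 + k * M)) (h : D * c = M * R)
    (hR : R - c₀ = M * L) : M ∣ D * n - c₀ := by
  have h1 : D * n * (1 + k * M) = R := by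
    apply mul_left_cancel₀ hM
    rw [← h, hc]
    ring
  exact ⟨L - D * n * k, by linear_combination h1 + hR⟩

theorem no_dvd {M x : ℤ} (h : M ∣ x) (h1 : 0 < x) (h2 : x < M) : False := by
  have := Int.le_of_dvd h1 h
  omega

theorem no_dvd' {M x : ℤ} (h : M ∣ x) (h1 : x < 0) (h2 : -x < M) : False :=
  no_dvd ((dvd_neg).2 h) (by omega) h2

theorem d12_psl2 {q n k c : ℤ} (hM : q ^ 4 - q ^ 2 + 1 ≠ 0) (hc : c = n * (q ^ 4 - q ^ 2 + 1) * (1 + k * (q ^ 4 - q ^ 2 + 1)))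
    (h : c = q ^ 6 * ((q ^ 6) ^ 2 - 1)) : q ^ 4 - q ^ 2 + 1 ∣ n - (2 * q ^ 2 + 2) := by
  have h' : 1 * c = (q ^ 4 - q ^ 2 + 1) * (q ^ 14 + q ^ 12 - q ^ 8 - q ^ 6) := by
    rw [one_mul, h]
    ring
  have := key hM hc h' (c₀ := 2 * q ^ 2 + 2) (L := q ^ 10 + 2 * q ^ 8 + q ^ 6 - 2 * q ^ 4 - 4 * q ^ 2 - 2) (by ring)
  rwa [one_mul] at this

theorem d12_psl3 {q n k c D : ℤ} (hM : q ^ 4 - q ^ 2 + 1 ≠ 0) (hc : c = n * (q ^ 4 - q ^ 2 + 1) * (1 + k * (q ^ 4 - q ^ 2 + 1)))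
    (h : D * c = (q ^ 4) ^ 3 * (((q ^ 4) ^ 2 - 1) * ((q ^ 4) ^ 3 - 1))) : q ^ 4 - q ^ 2 + 1 ∣ D * n - (6 * q ^ 2) := by
  have h' : D * c = (q ^ 4 - q ^ 2 + 1) * (q ^ 28 + q ^ 26 - q ^ 22 - 2 * q ^ 20 - q ^ 18 + q ^ 14 + q ^ 12) := by
    rw [h]
    ring
  have := key hM hc h' (c₀ := 6 * q ^ 2) (L := q ^ 24 + 2 * q ^ 22 + q ^ 20 - 2 * q ^ 18 - 5 * q ^ 16 - 4 * q ^ 14 + q ^ 12 + 6 * q ^ 10 + 6 * q ^ 8 - 6 * q ^ 4 - 6 * q ^ 2) (by ring)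
  exact this

theorem d12_psp2 {q n k c : ℤ} (hM : q ^ 4 - q ^ 2 + 1 ≠ 0) (hc : c = n * (q ^ 4 - q ^ 2 + 1) * (1 + k * (q ^ 4 - q ^ 2 + 1)))
    (h : c = (q ^ 3) ^ 4 * (((q ^ 3) ^ 2 - 1) * ((q ^ 3) ^ 4 - 1))) : q ^ 4 - q ^ 2 + 1 ∣ n - (4 * q ^ 2 + 4) := by
  have h' : 1 * c = (q ^ 4 - q ^ 2 + 1) * (q ^ 26 + q ^ 24 - 2 * q ^ 20 - 2 * q ^ 18 + q ^ 14 + q ^ 12) := by
    rw [one_mul, h]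
    ring
  have := key hM hc h' (c₀ := 4 * q ^ 2 + 4) (L := q ^ 22 + 2 * q ^ 20 + q ^ 18 - 3 * q ^ 16 - 6 * q ^ 14 - 3 * q ^ 12 + 4 * q ^ 10 + 8 * q ^ 8 + 4 * q ^ 6 - 4 * q ^ 4 - 8 * q ^ 2 - 4) (by ring)
  rwa [one_mul] at this

theorem d12_psu3 {q n k c D : ℤ} (hM : q ^ 4 - q ^ 2 + 1 ≠ 0) (hc : c = n * (q ^ 4 - q ^ 2 + 1) * (1 + k * (q ^ 4 - q ^ 2 + 1)))
    (h : D * c = (q ^ 2) ^ 3 * (((q ^ 2) ^ 2 - 1) * ((q ^ 2) ^ 3 + 1))) : q ^ 4 - q ^ 2 + 1 ∣ D * n - (3) := by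
  have h' : D * c = (q ^ 4 - q ^ 2 + 1) * (q ^ 12 + q ^ 10 - q ^ 8 - q ^ 6) := by
    rw [h]
    ring
  have := key hM hc h' (c₀ := 3) (L := q ^ 8 + 2 * q ^ 6 - 3 * q ^ 2 - 3) (by ring)
  exact this

theorem d12_g2 {q n k c : ℤ} (hM : q ^ 4 - q ^ 2 + 1 ≠ 0) (hc : c = n * (q ^ 4 - q ^ 2 + 1) * (1 + k * (q ^ 4 - q ^ 2 + 1)))
    (h : c = (q ^ 2) ^ 6 * (((q ^ 2) ^ 2 - 1) * ((q ^ 2) ^ 6 - 1))) : q ^ 4 - q ^ 2 + 1 ∣ n - (6) := by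
  have h' : 1 * c = (q ^ 4 - q ^ 2 + 1) * (q ^ 24 + q ^ 22 - q ^ 20 - 2 * q ^ 18 - q ^ 16 + q ^ 14 + q ^ 12) := by
    rw [one_mul, h]
    ring
  have := key hM hc h' (c₀ := 6) (L := q ^ 20 + 2 * q ^ 18 - 4 * q ^ 14 - 5 * q ^ 12 + 6 * q ^ 8 + 6 * q ^ 6 - 6 * q ^ 2 - 6) (by ring)
  rwa [one_mul] at this

theorem d12_td4 {q n k c : ℤ} (hM : q ^ 4 - q ^ 2 + 1 ≠ 0) (hc : c = n * (q ^ 4 - q ^ 2 + 1) * (1 + k * (q ^ 4 - q ^ 2 + 1)))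
    (h : c = q ^ 12 * ((q ^ 2 - 1) * (q ^ 6 - 1) * (q ^ 8 + q ^ 4 + 1))) : q ^ 4 - q ^ 2 + 1 ∣ n - (4) := by
  have h' : 1 * c = (q ^ 4 - q ^ 2 + 1) * (q ^ 24 - 2 * q ^ 18 + q ^ 12) := by
    rw [one_mul, h]
    ring
  have := key hM hc h' (c₀ := 4) (L := q ^ 20 + q ^ 18 - 3 * q ^ 14 - 3 * q ^ 12 + 4 * q ^ 8 + 4 * q ^ 6 - 4 * q ^ 2 - 4) (by ring)
  rwa [one_mul] at this

theorem d12_sz {q n k c : ℤ} (hM : q ^ 4 - q ^ 2 + 1 ≠ 0) (hc : c = n * (q ^ 4 - q ^ 2 + 1) * (1 + k * (q ^ 4 - q ^ 2 + 1)))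
    (h : c = (q ^ 3) ^ 2 * ((q ^ 3 - 1) * ((q ^ 3) ^ 2 + 1))) : q ^ 4 - q ^ 2 + 1 ∣ n - (-2 * q ^ 3 + q ^ 2 + q + 1) := by
  have h' : 1 * c = (q ^ 4 - q ^ 2 + 1) * (q ^ 11 + q ^ 9 - q ^ 8 - q ^ 6) := by
    rw [one_mul, h]
    ring
  have := key hM hc h' (c₀ := -2 * q ^ 3 + q ^ 2 + q + 1) (L := q ^ 7 + 2 * q ^ 5 - q ^ 4 + q ^ 3 - 2 * q ^ 2 - q - 1) (by ring)
  rwa [one_mul] at this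

theorem d12_tf4 {q n k c : ℤ} (hM : q ^ 4 - q ^ 2 + 1 ≠ 0) (hc : c = n * (q ^ 4 - q ^ 2 + 1) * (1 + k * (q ^ 4 - q ^ 2 + 1)))
    (h : c = q ^ 12 * ((q - 1) * (q ^ 3 + 1) * (q ^ 4 - 1) * (q ^ 6 + 1))) : q ^ 4 - q ^ 2 + 1 ∣ n - (3 * q ^ 3 - 3 * q ^ 2 - 3 * q + 6) := by
  have h' : 1 * c = (q ^ 4 - q ^ 2 + 1) * (q ^ 22 - q ^ 21 + q ^ 20 - 2 * q ^ 18 + 2 * q ^ 17 - 2 * q ^ 16 + q ^ 14 - q ^ 13 + q ^ 12) := by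
    rw [one_mul, h]
    ring
  have := key hM hc h' (c₀ := 3 * q ^ 3 - 3 * q ^ 2 - 3 * q + 6) (L := q ^ 18 - q ^ 17 + 2 * q ^ 16 - q ^ 15 - q ^ 14 + 2 * q ^ 13 - 5 * q ^ 12 + 3 * q ^ 11 - 3 * q ^ 10 + 3 * q ^ 8 - 3 * q ^ 7 + 6 * q ^ 6 - 3 * q ^ 5 + 3 * q ^ 4 - 3 * q ^ 2 + 3 * q - 6) (by ring)
  rwa [one_mul] at this

theorem d8_psl2 {q n k c : ℤ} (hM : q ^ 4 + 1 ≠ 0) (hc : c = n * (q ^ 4 + 1) * (1 + k * (q ^ 4 + 1)))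
    (h : c = q ^ 4 * ((q ^ 4) ^ 2 - 1)) : q ^ 4 + 1 ∣ n - (2) := by
  have h' : 1 * c = (q ^ 4 + 1) * (q ^ 8 - q ^ 4) := by
    rw [one_mul, h]
    ring
  have := key hM hc h' (c₀ := 2) (L := q ^ 4 - 2) (by ring)
  rwa [one_mul] at this

theorem d8_psl3 {q n k c D : ℤ} (hM : q ^ 4 + 1 ≠ 0) (hc : c = n * (q ^ 4 + 1) * (1 + k * (q ^ 4 + 1)))
    (h : D * c = (q ^ 4) ^ 3 * (((q ^ 4) ^ 2 - 1) * ((q ^ 4) ^ 3 - 1))) : q ^ 4 + 1 ∣ D * n - (-4) := by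
  have h' : D * c = (q ^ 4 + 1) * (q ^ 28 - q ^ 24 - q ^ 16 + q ^ 12) := by
    rw [h]
    ring
  have := key hM hc h' (c₀ := -4) (L := q ^ 24 - 2 * q ^ 20 + 2 * q ^ 16 - 3 * q ^ 12 + 4 * q ^ 8 - 4 * q ^ 4 + 4) (by ring)
  exact this

theorem d8_psl4 {q n k c : ℤ} (hM : q ^ 4 + 1 ≠ 0) (hc : c = n * (q ^ 4 + 1) * (1 + k * (q ^ 4 + 1)))
    (h : c = (q ^ 2) ^ 6 * (((q ^ 2) ^ 2 - 1) * (((q ^ 2) ^ 3 - 1) * ((q ^ 2) ^ 4 - 1)))) : q ^ 4 + 1 ∣ n - (4 * q ^ 2 + 4) := by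
  have h' : 1 * c = (q ^ 4 + 1) * (q ^ 26 - 2 * q ^ 22 - q ^ 20 + q ^ 18 + 2 * q ^ 16 - q ^ 12) := by
    rw [one_mul, h]
    ring
  have := key hM hc h' (c₀ := 4 * q ^ 2 + 4) (L := q ^ 22 - 3 * q ^ 18 - q ^ 16 + 4 * q ^ 14 + 3 * q ^ 12 - 4 * q ^ 10 - 4 * q ^ 8 + 4 * q ^ 6 + 4 * q ^ 4 - 4 * q ^ 2 - 4) (by ring)
  rwa [one_mul] at this

theorem d8_psp2 {q n k c : ℤ} (hM : q ^ 4 + 1 ≠ 0) (hc : c = n * (q ^ 4 + 1) * (1 + k * (q ^ 4 + 1)))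
    (h : c = (q ^ 2) ^ 4 * (((q ^ 2) ^ 2 - 1) * ((q ^ 2) ^ 4 - 1))) : q ^ 4 + 1 ∣ n - (4) := by
  have h' : 1 * c = (q ^ 4 + 1) * (q ^ 16 - 2 * q ^ 12 + q ^ 8) := by
    rw [one_mul, h]
    ring
  have := key hM hc h' (c₀ := 4) (L := q ^ 12 - 3 * q ^ 8 + 4 * q ^ 4 - 4) (by ring)
  rwa [one_mul] at this

theorem d8_psp4 {q n k c : ℤ} (hM : q ^ 4 + 1 ≠ 0) (hc : c = n * (q ^ 4 + 1) * (1 + k * (q ^ 4 + 1)))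
    (h : c = q ^ 16 * ((q ^ 2 - 1) * ((q ^ 4 - 1) * ((q ^ 6 - 1) * (q ^ 8 - 1))))) : q ^ 4 + 1 ∣ n - (8) := by
  have h' : 1 * c = (q ^ 4 + 1) * (q ^ 32 - q ^ 30 - 2 * q ^ 28 + q ^ 26 + 2 * q ^ 24 + q ^ 22 - 2 * q ^ 20 - q ^ 18 + q ^ 16) := by
    rw [one_mul, h]
    ring
  have := key hM hc h' (c₀ := 8) (L := q ^ 28 - q ^ 26 - 3 * q ^ 24 + 2 * q ^ 22 + 5 * q ^ 20 - q ^ 18 - 7 * q ^ 16 + 8 * q ^ 12 - 8 * q ^ 8 + 8 * q ^ 4 - 8) (by ring)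
  rwa [one_mul] at this

theorem d8_ominus4 {q n k c : ℤ} (hM : q ^ 4 + 1 ≠ 0) (hc : c = n * (q ^ 4 + 1) * (1 + k * (q ^ 4 + 1)))
    (h : c = q ^ 12 * ((q ^ 4 + 1) * ((q ^ 2 - 1) * ((q ^ 4 - 1) * (q ^ 6 - 1))))) : q ^ 4 + 1 ∣ n - (4) := by
  have h' : 1 * c = (q ^ 4 + 1) * (q ^ 24 - q ^ 22 - q ^ 20 + q ^ 16 + q ^ 14 - q ^ 12) := by
    rw [one_mul, h]
    ring
  have := key hM hc h' (c₀ := 4) (L := q ^ 20 - q ^ 18 - 2 * q ^ 16 + q ^ 14 + 3 * q ^ 12 - 4 * q ^ 8 + 4 * q ^ 4 - 4) (by ring)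
  rwa [one_mul] at this

theorem d8_oplus5 {q n k c : ℤ} (hM : q ^ 4 + 1 ≠ 0) (hc : c = n * (q ^ 4 + 1) * (1 + k * (q ^ 4 + 1)))
    (h : c = q ^ 20 * ((q ^ 5 - 1) * ((q ^ 2 - 1) * ((q ^ 4 - 1) * ((q ^ 6 - 1) * (q ^ 8 - 1)))))) : q ^ 4 + 1 ∣ n - (8 * q + 8) := by
  have h' : 1 * c = (q ^ 4 + 1) * (q ^ 41 - q ^ 39 - 2 * q ^ 37 - q ^ 36 + q ^ 35 + q ^ 34 + 2 * q ^ 33 + 2 * q ^ 32 + q ^ 31 - q ^ 30 - 2 * q ^ 29 - 2 * q ^ 28 - q ^ 27 - q ^ 26 + q ^ 25 + 2 * q ^ 24 + q ^ 22 - q ^ 20) := by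
    rw [one_mul, h]
    ring
  have := key hM hc h' (c₀ := 8 * q + 8) (L := q ^ 37 - q ^ 35 - 3 * q ^ 33 - q ^ 32 + 2 * q ^ 31 + q ^ 30 + 5 * q ^ 29 + 3 * q ^ 28 - q ^ 27 - 2 * q ^ 26 - 7 * q ^ 25 - 5 * q ^ 24 + q ^ 22 + 8 * q ^ 21 + 7 * q ^ 20 - 8 * q ^ 17 - 8 * q ^ 16 + 8 * q ^ 13 + 8 * q ^ 12 - 8 * q ^ 9 - 8 * q ^ 8 + 8 * q ^ 5 + 8 * q ^ 4 - 8 * q - 8) (by ring)
  rwa [one_mul] at this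

theorem d8_psu3 {r n k c D : ℤ} (hM : r ^ 12 + 1 ≠ 0) (hc : c = n * (r ^ 12 + 1) * (1 + k * (r ^ 12 + 1)))
    (h : D * c = (r ^ 4) ^ 3 * (((r ^ 4) ^ 2 - 1) * ((r ^ 4) ^ 3 + 1))) : r ^ 12 + 1 ∣ D * n - (-r ^ 8 + 1) := by
  have h' : D * c = (r ^ 12 + 1) * (r ^ 20 - r ^ 12) := by
    rw [h]
    ring
  have := key hM hc h' (c₀ := -r ^ 8 + 1) (L := r ^ 8 - 1) (by ring)
  exact this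

theorem d8_g2 {r n k c : ℤ} (hM : r ^ 12 + 1 ≠ 0) (hc : c = n * (r ^ 12 + 1) * (1 + k * (r ^ 12 + 1)))
    (h : c = (r ^ 4) ^ 6 * (((r ^ 4) ^ 2 - 1) * ((r ^ 4) ^ 6 - 1))) : r ^ 12 + 1 ∣ n - (-2 * r ^ 8 + 2) := by
  have h' : 1 * c = (r ^ 12 + 1) * (r ^ 44 - r ^ 36 - r ^ 32 + r ^ 24) := by
    rw [one_mul, h]
    ring
  have := key hM hc h' (c₀ := -2 * r ^ 8 + 2) (L := r ^ 32 - r ^ 24 - 2 * r ^ 20 + 2 * r ^ 12 + 2 * r ^ 8 - 2) (by ring)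
  rwa [one_mul] at this

end Cfsg.Agent.H351.CovF4
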