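import Mathlib
import Cfsg.Agent.H325.Same.ExcPair8

/-!
# Elimination in characteristic 2, one class (helper351, for S2499)
-/

set_option autoImplicit false
set_option linter.unreachableTactic false
set_option linter.unusedTactic false
set_option linter.unnecessarySeqFocus false
set_option maxHeartbeats 2000000

namespace Cfsg.Agent.H351.CovF4

open Cfsg.Agent.OrdDiv Cfsg.Agent.H436 Cfsg.Agent.H915.GN Cfsg.Agent.H264.GN Cfsg.Agent.H264.FKS Cfsg.Agent.H325.Same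

/-- the survivors of the class 12 -/
def Out12 : Grp → Prop
  | .f4 _ => True
  | .psl m _ => m = 2 ∨ m = 3
  | .psp m _ => m = 2 ∨ m = 3
  | .psu m _ => m = 3 ∨ m = 4
  | .oplus m _ => m = 4
  | .g2 _ => True
  | .td4 _ => True
  | .tf4 _ => True
  | .sz _ => True
  | _ => False

/-- the survivors of the class 8, top exponent 8 -/
def Out8 : Grp → Prop
  | .psl m _ => m = 2 ∨ m = 4
  | .psp m _ => m = 2 ∨ m = 4
  | .psu m _ => m = 3
  | .oplus m _ => m = 5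
  | .ominus m _ => m = 4
  | .g2 _ => True
  | .td4 _ => True
  | .tf4 _ => True
  | .sz _ => True
  | _ => False

/-- the survivors of the class 8, top exponent 12 -/
def Out8' : Grp → Prop
  | .f4 _ => True
  | .psl m _ => m = 3
  | .psp m _ => m = 3
  | .psu m _ => m = 4
  | .oplus m _ => m = 4
  | _ => False

theorem not_odd_two_pow {a : ℕ} (h : 2 ≤ 2 ^ a) (ho : Odd (2 ^ a)) : False := by
  cases a with
  | zero => norm_num at h
  | succ a =>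
    rw [pow_succ] at ho
    exact (Nat.not_odd_iff_even.2 ⟨2 ^ a, by ring⟩) ho

theorem three_pow_ne {m a : ℕ} (h : 3 ^ (2 * m + 1) = 2 ^ a) : False := by
  have h1 : 3 ∣ 2 ^ a := h ▸ dvd_pow_self 3 (by omega)
  exact absurd (Nat.prime_three.dvd_of_dvd_pow h1) (by norm_num)

theorem elim12 {g : Grp} {f f₁ : ℕ} (hf : 1 ≤ f) (hf₁ : 1 ≤ f₁) (hg : Cond g) (hch : HasChar 2 g)
    (hfM : f₁ * Mg g = f * 12) (h2 : ag g * 12 ≤ 24 * Mg g)
    (hY : ∀ k, Yg g k → 3 ≤ f₁ * k → ¬ (2 = 2 ∧ f₁ * k = 6) → ∃ j, j ∈ [2, 6, 8, 12] ∧ 12 * k ∣ Mg g * j) : Out12 g := by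
  have h2' : 2 * ag g ≤ 4 * Mg g := by omega
  clear h2
  cases g
  case psl m q =>
    obtain ⟨hm, -, -⟩ := hg
    have hb := bd_psl (ρ := 4) (by omega) h2'
    have hf' : f₁ * m = f * 12 := hfM
    have hY3 : 3 ≤ m → 3 ≤ f₁ * 3 → f₁ * 3 ≠ 6 → 36 ∣ m * 2 ∨ 36 ∣ m * 6 ∨ 36 ∣ m * 8 ∨ 36 ∣ m * 12 := by
      intro h ha hb
      obtain ⟨j, hj, hjd⟩ := hY 3 (show 2 ≤ 3 ∧ 3 ≤ m from ⟨by norm_num, h⟩) ha (fun hh => hb hh.2)
      have hjd' : 12 * 3 ∣ m * j := hjd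
      simp only [List.mem_cons, List.not_mem_nil, or_false] at hj
      norm_num only at hjd'
      rcases hj with rfl | rfl | rfl | rfl <;> simp only [hjd', true_or, or_true]
    have hY4 : 4 ≤ m → 3 ≤ f₁ * 4 → f₁ * 4 ≠ 6 → 48 ∣ m * 2 ∨ 48 ∣ m * 6 ∨ 48 ∣ m * 8 ∨ 48 ∣ m * 12 := by
      intro h ha hb
      obtain ⟨j, hj, hjd⟩ := hY 4 (show 2 ≤ 4 ∧ 4 ≤ m from ⟨by norm_num, h⟩) ha (fun hh => hb hh.2)
      have hjd' : 12 * 4 ∣ m * j := hjd
      simp only [List.mem_cons, List.not_mem_nil, or_false] at hj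
      norm_num only at hjd'
      rcases hj with rfl | rfl | rfl | rfl <;> simp only [hjd', true_or, or_true]
    clear h2' hch hY hfM
    interval_cases m <;> first | exact trivial | exact Or.inl rfl | exact Or.inr rfl | exact rfl | omega
  case psp m q =>
    obtain ⟨hm, -, -⟩ := hg
    have hb := bd_psp (ρ := 4) (by omega) h2'
    have hf' : f₁ * (2 * m) = f * 12 := hfM
    have hY6 : 6 ≤ 2 * m → 3 ≤ f₁ * 6 → f₁ * 6 ≠ 6 → 72 ∣ (2 * m) * 2 ∨ 72 ∣ (2 * m) * 6 ∨ 72 ∣ (2 * m) * 8 ∨ 72 ∣ (2 * m) * 12 := by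
      intro h ha hb
      obtain ⟨j, hj, hjd⟩ := hY 6 (show 1 ≤ 6 ∧ 6 ≤ 2 * m ∧ 2 ∣ 6 from ⟨by norm_num, h, by norm_num⟩) ha (fun hh => hb hh.2)
      have hjd' : 12 * 6 ∣ (2 * m) * j := hjd
      simp only [List.mem_cons, List.not_mem_nil, or_false] at hj
      norm_num only at hjd'
      rcases hj with rfl | rfl | rfl | rfl <;> simp only [hjd', true_or, or_true]
    clear h2' hch hY hfM
    interval_cases m <;> first | exact trivial | exact Or.inl rfl | exact Or.inr rfl | exact rfl | omega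
  case oodd m q =>
    obtain ⟨-, ho, hp⟩ := hg
    obtain ⟨a, rfl⟩ := hch
    exact (not_odd_two_pow hp.two_le ho).elim
  case psu m q =>
    obtain ⟨hm, -, -⟩ := hg
    have hb := bd_psu (ρ := 4) hm h2'
    obtain ⟨k, hk⟩ : ∃ k, k = (if m % 2 = 0 then m - 1 else m) := ⟨_, rfl⟩
    have hk' : (m % 2 = 0 ∧ k = m - 1) ∨ (m % 2 = 1 ∧ k = m) := by
      rw [hk]
      split_ifs <;> omega
    have hM : Mg (.psu m q) = 2 * k := by rw [hk]; rfl
    have hf' : f₁ * (2 * k) = f * 12 := hM ▸ hfM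
    have hY4 : 4 ≤ m → 3 ≤ f₁ * 4 → f₁ * 4 ≠ 6 → 48 ∣ (2 * k) * 2 ∨ 48 ∣ (2 * k) * 6 ∨ 48 ∣ (2 * k) * 8 ∨ 48 ∣ (2 * k) * 12 := by
      intro h ha hb
      obtain ⟨j, hj, hjd⟩ := hY 4 (show 3 ≤ 4 ∧ ((4 ≤ m ∧ 4 % 2 = 0) ∨ ∃ j, 4 = 2 * j ∧ j ≤ m ∧ j % 2 = 1) from ⟨by norm_num, Or.inl ⟨h, rfl⟩⟩) ha (fun hh => hb hh.2)
      have hjd' : 12 * 4 ∣ (2 * k) * j := hM ▸ hjd
      simp only [List.mem_cons, List.not_mem_nil, or_false] at hj
      norm_num only at hjd'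
      rcases hj with rfl | rfl | rfl | rfl <;> simp only [hjd', true_or, or_true]
    have hY8 : 8 ≤ m → 3 ≤ f₁ * 8 → f₁ * 8 ≠ 6 → 96 ∣ (2 * k) * 2 ∨ 96 ∣ (2 * k) * 6 ∨ 96 ∣ (2 * k) * 8 ∨ 96 ∣ (2 * k) * 12 := by
      intro h ha hb
      obtain ⟨j, hj, hjd⟩ := hY 8 (show 3 ≤ 8 ∧ ((8 ≤ m ∧ 8 % 2 = 0) ∨ ∃ j, 8 = 2 * j ∧ j ≤ m ∧ j % 2 = 1) from ⟨by norm_num, Or.inl ⟨h, rfl⟩⟩) ha (fun hh => hb hh.2)
      have hjd' : 12 * 8 ∣ (2 * k) * j := hM ▸ hjd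
      simp only [List.mem_cons, List.not_mem_nil, or_false] at hj
      norm_num only at hjd'
      rcases hj with rfl | rfl | rfl | rfl <;> simp only [hjd', true_or, or_true]
    clear h2' hch hY hfM hM hk
    rcases hk' with ⟨hk1, hk2⟩ | ⟨hk1, hk2⟩ <;> interval_cases m <;> subst hk2 <;> first | exact trivial | exact Or.inl rfl | exact Or.inr rfl | exact rfl | omega
  case oplus m q =>
    obtain ⟨hm, -⟩ := hg
    have hb := bd_oplus (ρ := 4) (by omega) h2'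
    have hf' : f₁ * (2 * (m - 1)) = f * 12 := hfM
    clear h2' hch hY hfM
    interval_cases m <;> first | exact trivial | exact Or.inl rfl | exact Or.inr rfl | exact rfl | omega
  case ominus m q =>
    obtain ⟨hm, -⟩ := hg
    have hb := bd_ominus (ρ := 4) (by omega) h2'
    have hf' : f₁ * (2 * m) = f * 12 := hfM
    have hY4 : 4 ≤ 2 * m → 3 ≤ f₁ * 4 → f₁ * 4 ≠ 6 → 48 ∣ (2 * m) * 2 ∨ 48 ∣ (2 * m) * 6 ∨ 48 ∣ (2 * m) * 8 ∨ 48 ∣ (2 * m) * 12 := by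
      intro h ha hb
      obtain ⟨j, hj, hjd⟩ := hY 4 (show 4 ≤ 4 ∧ 4 ≤ 2 * m ∧ 2 ∣ 4 from ⟨by norm_num, h, by norm_num⟩) ha (fun hh => hb hh.2)
      have hjd' : 12 * 4 ∣ (2 * m) * j := hjd
      simp only [List.mem_cons, List.not_mem_nil, or_false] at hj
      norm_num only at hjd'
      rcases hj with rfl | rfl | rfl | rfl <;> simp only [hjd', true_or, or_true]
    have hY6 : 6 ≤ 2 * m → 3 ≤ f₁ * 6 → f₁ * 6 ≠ 6 → 72 ∣ (2 * m) * 2 ∨ 72 ∣ (2 * m) * 6 ∨ 72 ∣ (2 * m) * 8 ∨ 72 ∣ (2 * m) * 12 := by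
      intro h ha hb
      obtain ⟨j, hj, hjd⟩ := hY 6 (show 4 ≤ 6 ∧ 6 ≤ 2 * m ∧ 2 ∣ 6 from ⟨by norm_num, h, by norm_num⟩) ha (fun hh => hb hh.2)
      have hjd' : 12 * 6 ∣ (2 * m) * j := hjd
      simp only [List.mem_cons, List.not_mem_nil, or_false] at hj
      norm_num only at hjd'
      rcases hj with rfl | rfl | rfl | rfl <;> simp only [hjd', true_or, or_true]
    clear h2' hch hY hfM
    interval_cases m <;> first | exact trivial | exact Or.inl rfl | exact Or.inr rfl | exact rfl | omega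
  case g2 q =>
    have hf' : f₁ * 6 = f * 12 := hfM
    have h4 : 2 * 6 ≤ 4 * 6 := h2'
    clear h2' hch hY hfM
    first | exact trivial | exact Or.inl rfl | exact Or.inr rfl | exact rfl | omega
  case f4 q =>
    have hf' : f₁ * 12 = f * 12 := hfM
    have h4 : 2 * 24 ≤ 4 * 12 := h2'
    clear h2' hch hY hfM
    first | exact trivial | exact Or.inl rfl | exact Or.inr rfl | exact rfl | omega
  case e6 q =>
    have hf' : f₁ * 12 = f * 12 := hfM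
    have h4 : 2 * 36 ≤ 4 * 12 := h2'
    clear h2' hch hY hfM
    first | exact trivial | exact Or.inl rfl | exact Or.inr rfl | exact rfl | omega
  case e7 q =>
    have hf' : f₁ * 18 = f * 12 := hfM
    have h4 : 2 * 63 ≤ 4 * 18 := h2'
    clear h2' hch hY hfM
    first | exact trivial | exact Or.inl rfl | exact Or.inr rfl | exact rfl | omega
  case e8 q =>
    have hf' : f₁ * 30 = f * 12 := hfM
    have h4 : 2 * 120 ≤ 4 * 30 := h2'
    clear h2' hch hY hfM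
    first | exact trivial | exact Or.inl rfl | exact Or.inr rfl | exact rfl | omega
  case te6 q =>
    have hf' : f₁ * 18 = f * 12 := hfM
    have h4 : 2 * 36 ≤ 4 * 18 := h2'
    have hY8 : 3 ≤ f₁ * 8 → f₁ * 8 ≠ 6 → 96 ∣ 18 * 2 ∨ 96 ∣ 18 * 6 ∨ 96 ∣ 18 * 8 ∨ 96 ∣ 18 * 12 := by
      intro ha hb
      obtain ⟨j, hj, hjd⟩ := hY 8 (show 8 ∈ [2, 3, 4, 6, 8, 10, 12, 18] by decide) ha (fun hh => hb hh.2)
      have hjd' : 12 * 8 ∣ 18 * j := hjd
      simp only [List.mem_cons, List.not_mem_nil, or_false] at hj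
      norm_num only at hjd'
      rcases hj with rfl | rfl | rfl | rfl <;> simp only [hjd', true_or, or_true]
    clear h2' hch hY hfM
    first | exact trivial | exact Or.inl rfl | exact Or.inr rfl | exact rfl | omega
  case td4 q =>
    have hf' : f₁ * 12 = f * 12 := hfM
    have h4 : 2 * 12 ≤ 4 * 12 := h2'
    clear h2' hch hY hfM
    first | exact trivial | exact Or.inl rfl | exact Or.inr rfl | exact rfl | omega
  case sz q =>
    have hf' : f₁ * 4 = f * 12 := hfM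
    have h4 : 2 * 2 ≤ 4 * 4 := h2'
    clear h2' hch hY hfM
    first | exact trivial | exact Or.inl rfl | exact Or.inr rfl | exact rfl | omega
  case ree q =>
    obtain ⟨m, -, rfl⟩ := hg
    obtain ⟨a, ha⟩ := hch
    exact (three_pow_ne ha).elim
  case tf4 q =>
    have hf' : f₁ * 12 = f * 12 := hfM
    have h4 : 2 * 12 ≤ 4 * 12 := h2'
    clear h2' hch hY hfM
    first | exact trivial | exact Or.inl rfl | exact Or.inr rfl | exact rfl | omega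
  all_goals exact (show False from hch).elim

theorem elim8 {g : Grp} {f f₁ : ℕ} (hf : 1 ≤ f) (hf₁ : 1 ≤ f₁) (hg : Cond g) (hch : HasChar 2 g)
    (hfM : f₁ * Mg g = f * 8) (h2 : ag g * 8 ≤ 24 * Mg g)
    (hY : ∀ k, Yg g k → 3 ≤ f₁ * k → ¬ (2 = 2 ∧ f₁ * k = 6) → ∃ j, j ∈ [2, 6, 8, 12] ∧ 8 * k ∣ Mg g * j) : Out8 g := by
  have h2' : 2 * ag g ≤ 6 * Mg g := by omega
  clear h2
  cases g
  case psl m q =>
    obtain ⟨hm, -, -⟩ := hg
    have hb := bd_psl (ρ := 6) (by omega) h2'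
    have hf' : f₁ * m = f * 8 := hfM
    have hY2 : 2 ≤ m → 3 ≤ f₁ * 2 → f₁ * 2 ≠ 6 → 16 ∣ m * 2 ∨ 16 ∣ m * 6 ∨ 16 ∣ m * 8 ∨ 16 ∣ m * 12 := by
      intro h ha hb
      obtain ⟨j, hj, hjd⟩ := hY 2 (show 2 ≤ 2 ∧ 2 ≤ m from ⟨by norm_num, h⟩) ha (fun hh => hb hh.2)
      have hjd' : 8 * 2 ∣ m * j := hjd
      simp only [List.mem_cons, List.not_mem_nil, or_false] at hj
      norm_num only at hjd'
      rcases hj with rfl | rfl | rfl | rfl <;> simp only [hjd', true_or, or_true]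
    have hY4 : 4 ≤ m → 3 ≤ f₁ * 4 → f₁ * 4 ≠ 6 → 32 ∣ m * 2 ∨ 32 ∣ m * 6 ∨ 32 ∣ m * 8 ∨ 32 ∣ m * 12 := by
      intro h ha hb
      obtain ⟨j, hj, hjd⟩ := hY 4 (show 2 ≤ 4 ∧ 4 ≤ m from ⟨by norm_num, h⟩) ha (fun hh => hb hh.2)
      have hjd' : 8 * 4 ∣ m * j := hjd
      simp only [List.mem_cons, List.not_mem_nil, or_false] at hj
      norm_num only at hjd'
      rcases hj with rfl | rfl | rfl | rfl <;> simp only [hjd', true_or, or_true]
    have hY5 : 5 ≤ m → 3 ≤ f₁ * 5 → f₁ * 5 ≠ 6 → 40 ∣ m * 2 ∨ 40 ∣ m * 6 ∨ 40 ∣ m * 8 ∨ 40 ∣ m * 12 := by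
      intro h ha hb
      obtain ⟨j, hj, hjd⟩ := hY 5 (show 2 ≤ 5 ∧ 5 ≤ m from ⟨by norm_num, h⟩) ha (fun hh => hb hh.2)
      have hjd' : 8 * 5 ∣ m * j := hjd
      simp only [List.mem_cons, List.not_mem_nil, or_false] at hj
      norm_num only at hjd'
      rcases hj with rfl | rfl | rfl | rfl <;> simp only [hjd', true_or, or_true]
    clear h2' hch hY hfM
    interval_cases m <;> first | exact trivial | exact Or.inl rfl | exact Or.inr rfl | exact rfl | omega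
  case psp m q =>
    obtain ⟨hm, -, -⟩ := hg
    have hb := bd_psp (ρ := 6) (by omega) h2'
    have hf' : f₁ * (2 * m) = f * 8 := hfM
    have hY4 : 4 ≤ 2 * m → 3 ≤ f₁ * 4 → f₁ * 4 ≠ 6 → 32 ∣ (2 * m) * 2 ∨ 32 ∣ (2 * m) * 6 ∨ 32 ∣ (2 * m) * 8 ∨ 32 ∣ (2 * m) * 12 := by
      intro h ha hb
      obtain ⟨j, hj, hjd⟩ := hY 4 (show 1 ≤ 4 ∧ 4 ≤ 2 * m ∧ 2 ∣ 4 from ⟨by norm_num, h, by norm_num⟩) ha (fun hh => hb hh.2)
      have hjd' : 8 * 4 ∣ (2 * m) * j := hjd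
      simp only [List.mem_cons, List.not_mem_nil, or_false] at hj
      norm_num only at hjd'
      rcases hj with rfl | rfl | rfl | rfl <;> simp only [hjd', true_or, or_true]
    have hY8 : 8 ≤ 2 * m → 3 ≤ f₁ * 8 → f₁ * 8 ≠ 6 → 64 ∣ (2 * m) * 2 ∨ 64 ∣ (2 * m) * 6 ∨ 64 ∣ (2 * m) * 8 ∨ 64 ∣ (2 * m) * 12 := by
      intro h ha hb
      obtain ⟨j, hj, hjd⟩ := hY 8 (show 1 ≤ 8 ∧ 8 ≤ 2 * m ∧ 2 ∣ 8 from ⟨by norm_num, h, by norm_num⟩) ha (fun hh => hb hh.2)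
      have hjd' : 8 * 8 ∣ (2 * m) * j := hjd
      simp only [List.mem_cons, List.not_mem_nil, or_false] at hj
      norm_num only at hjd'
      rcases hj with rfl | rfl | rfl | rfl <;> simp only [hjd', true_or, or_true]
    clear h2' hch hY hfM
    interval_cases m <;> first | exact trivial | exact Or.inl rfl | exact Or.inr rfl | exact rfl | omega
  case oodd m q =>
    obtain ⟨-, ho, hp⟩ := hg
    obtain ⟨a, rfl⟩ := hch
    exact (not_odd_two_pow hp.two_le ho).elim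
  case psu m q =>
    obtain ⟨hm, -, -⟩ := hg
    have hb := bd_psu (ρ := 6) hm h2'
    obtain ⟨k, hk⟩ : ∃ k, k = (if m % 2 = 0 then m - 1 else m) := ⟨_, rfl⟩
    have hk' : (m % 2 = 0 ∧ k = m - 1) ∨ (m % 2 = 1 ∧ k = m) := by
      rw [hk]
      split_ifs <;> omega
    have hM : Mg (.psu m q) = 2 * k := by rw [hk]; rfl
    have hf' : f₁ * (2 * k) = f * 8 := hM ▸ hfM
    have hY4 : 4 ≤ m → 3 ≤ f₁ * 4 → f₁ * 4 ≠ 6 → 32 ∣ (2 * k) * 2 ∨ 32 ∣ (2 * k) * 6 ∨ 32 ∣ (2 * k) * 8 ∨ 32 ∣ (2 * k) * 12 := by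
      intro h ha hb
      obtain ⟨j, hj, hjd⟩ := hY 4 (show 3 ≤ 4 ∧ ((4 ≤ m ∧ 4 % 2 = 0) ∨ ∃ j, 4 = 2 * j ∧ j ≤ m ∧ j % 2 = 1) from ⟨by norm_num, Or.inl ⟨h, rfl⟩⟩) ha (fun hh => hb hh.2)
      have hjd' : 8 * 4 ∣ (2 * k) * j := hM ▸ hjd
      simp only [List.mem_cons, List.not_mem_nil, or_false] at hj
      norm_num only at hjd'
      rcases hj with rfl | rfl | rfl | rfl <;> simp only [hjd', true_or, or_true]
    clear h2' hch hY hfM hM hk
    rcases hk' with ⟨hk1, hk2⟩ | ⟨hk1, hk2⟩ <;> interval_cases m <;> subst hk2 <;> first | exact trivial | exact Or.inl rfl | exact Or.inr rfl | exact rfl | omega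
  case oplus m q =>
    obtain ⟨hm, -⟩ := hg
    have hb := bd_oplus (ρ := 6) (by omega) h2'
    have hf' : f₁ * (2 * (m - 1)) = f * 8 := hfM
    have hY4 : 4 ≤ 2 * (m - 1) → 3 ≤ f₁ * 4 → f₁ * 4 ≠ 6 → 32 ∣ (2 * (m - 1)) * 2 ∨ 32 ∣ (2 * (m - 1)) * 6 ∨ 32 ∣ (2 * (m - 1)) * 8 ∨ 32 ∣ (2 * (m - 1)) * 12 := by
      intro h ha hb
      obtain ⟨j, hj, hjd⟩ := hY 4 (show 4 ≤ 4 ∧ 4 ≤ 2 * (m - 1) ∧ 2 ∣ 4 from ⟨by norm_num, h, by norm_num⟩) ha (fun hh => hb hh.2)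
      have hjd' : 8 * 4 ∣ (2 * (m - 1)) * j := hjd
      simp only [List.mem_cons, List.not_mem_nil, or_false] at hj
      norm_num only at hjd'
      rcases hj with rfl | rfl | rfl | rfl <;> simp only [hjd', true_or, or_true]
    clear h2' hch hY hfM
    interval_cases m <;> first | exact trivial | exact Or.inl rfl | exact Or.inr rfl | exact rfl | omega
  case ominus m q =>
    obtain ⟨hm, -⟩ := hg
    have hb := bd_ominus (ρ := 6) (by omega) h2'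
    have hf' : f₁ * (2 * m) = f * 8 := hfM
    have hY4 : 4 ≤ 2 * m → 3 ≤ f₁ * 4 → f₁ * 4 ≠ 6 → 32 ∣ (2 * m) * 2 ∨ 32 ∣ (2 * m) * 6 ∨ 32 ∣ (2 * m) * 8 ∨ 32 ∣ (2 * m) * 12 := by
      intro h ha hb
      obtain ⟨j, hj, hjd⟩ := hY 4 (show 4 ≤ 4 ∧ 4 ≤ 2 * m ∧ 2 ∣ 4 from ⟨by norm_num, h, by norm_num⟩) ha (fun hh => hb hh.2)
      have hjd' : 8 * 4 ∣ (2 * m) * j := hjd
      simp only [List.mem_cons, List.not_mem_nil, or_false] at hj
      norm_num only at hjd'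
      rcases hj with rfl | rfl | rfl | rfl <;> simp only [hjd', true_or, or_true]
    have hY8 : 8 ≤ 2 * m → 3 ≤ f₁ * 8 → f₁ * 8 ≠ 6 → 64 ∣ (2 * m) * 2 ∨ 64 ∣ (2 * m) * 6 ∨ 64 ∣ (2 * m) * 8 ∨ 64 ∣ (2 * m) * 12 := by
      intro h ha hb
      obtain ⟨j, hj, hjd⟩ := hY 8 (show 4 ≤ 8 ∧ 8 ≤ 2 * m ∧ 2 ∣ 8 from ⟨by norm_num, h, by norm_num⟩) ha (fun hh => hb hh.2)
      have hjd' : 8 * 8 ∣ (2 * m) * j := hjd
      simp only [List.mem_cons, List.not_mem_nil, or_false] at hj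
      norm_num only at hjd'
      rcases hj with rfl | rfl | rfl | rfl <;> simp only [hjd', true_or, or_true]
    clear h2' hch hY hfM
    interval_cases m <;> first | exact trivial | exact Or.inl rfl | exact Or.inr rfl | exact rfl | omega
  case g2 q =>
    have hf' : f₁ * 6 = f * 8 := hfM
    have h4 : 2 * 6 ≤ 6 * 6 := h2'
    clear h2' hch hY hfM
    first | exact trivial | exact Or.inl rfl | exact Or.inr rfl | exact rfl | omega
  case f4 q =>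
    have hf' : f₁ * 12 = f * 8 := hfM
    have h4 : 2 * 24 ≤ 6 * 12 := h2'
    have hY8 : 3 ≤ f₁ * 8 → f₁ * 8 ≠ 6 → 64 ∣ 12 * 2 ∨ 64 ∣ 12 * 6 ∨ 64 ∣ 12 * 8 ∨ 64 ∣ 12 * 12 := by
      intro ha hb
      obtain ⟨j, hj, hjd⟩ := hY 8 (show 8 ∈ [2, 3, 4, 6, 8, 12] by decide) ha (fun hh => hb hh.2)
      have hjd' : 8 * 8 ∣ 12 * j := hjd
      simp only [List.mem_cons, List.not_mem_nil, or_false] at hj
      norm_num only at hjd'
      rcases hj with rfl | rfl | rfl | rfl <;> simp only [hjd', true_or, or_true]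
    clear h2' hch hY hfM
    first | exact trivial | exact Or.inl rfl | exact Or.inr rfl | exact rfl | omega
  case e6 q =>
    have hf' : f₁ * 12 = f * 8 := hfM
    have h4 : 2 * 36 ≤ 6 * 12 := h2'
    have hY8 : 3 ≤ f₁ * 8 → f₁ * 8 ≠ 6 → 64 ∣ 12 * 2 ∨ 64 ∣ 12 * 6 ∨ 64 ∣ 12 * 8 ∨ 64 ∣ 12 * 12 := by
      intro ha hb
      obtain ⟨j, hj, hjd⟩ := hY 8 (show 8 ∈ [2, 3, 4, 5, 6, 8, 9, 12] by decide) ha (fun hh => hb hh.2)
      have hjd' : 8 * 8 ∣ 12 * j := hjd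
      simp only [List.mem_cons, List.not_mem_nil, or_false] at hj
      norm_num only at hjd'
      rcases hj with rfl | rfl | rfl | rfl <;> simp only [hjd', true_or, or_true]
    clear h2' hch hY hfM
    first | exact trivial | exact Or.inl rfl | exact Or.inr rfl | exact rfl | omega
  case e7 q =>
    have hf' : f₁ * 18 = f * 8 := hfM
    have h4 : 2 * 63 ≤ 6 * 18 := h2'
    clear h2' hch hY hfM
    first | exact trivial | exact Or.inl rfl | exact Or.inr rfl | exact rfl | omega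
  case e8 q =>
    have hf' : f₁ * 30 = f * 8 := hfM
    have h4 : 2 * 120 ≤ 6 * 30 := h2'
    clear h2' hch hY hfM
    first | exact trivial | exact Or.inl rfl | exact Or.inr rfl | exact rfl | omega
  case te6 q =>
    have hf' : f₁ * 18 = f * 8 := hfM
    have h4 : 2 * 36 ≤ 6 * 18 := h2'
    have hY4 : 3 ≤ f₁ * 4 → f₁ * 4 ≠ 6 → 32 ∣ 18 * 2 ∨ 32 ∣ 18 * 6 ∨ 32 ∣ 18 * 8 ∨ 32 ∣ 18 * 12 := by
      intro ha hb
      obtain ⟨j, hj, hjd⟩ := hY 4 (show 4 ∈ [2, 3, 4, 6, 8, 10, 12, 18] by decide) ha (fun hh => hb hh.2)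
      have hjd' : 8 * 4 ∣ 18 * j := hjd
      simp only [List.mem_cons, List.not_mem_nil, or_false] at hj
      norm_num only at hjd'
      rcases hj with rfl | rfl | rfl | rfl <;> simp only [hjd', true_or, or_true]
    clear h2' hch hY hfM
    first | exact trivial | exact Or.inl rfl | exact Or.inr rfl | exact rfl | omega
  case td4 q =>
    have hf' : f₁ * 12 = f * 8 := hfM
    have h4 : 2 * 12 ≤ 6 * 12 := h2'
    clear h2' hch hY hfM
    first | exact trivial | exact Or.inl rfl | exact Or.inr rfl | exact rfl | omega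
  case sz q =>
    have hf' : f₁ * 4 = f * 8 := hfM
    have h4 : 2 * 2 ≤ 6 * 4 := h2'
    clear h2' hch hY hfM
    first | exact trivial | exact Or.inl rfl | exact Or.inr rfl | exact rfl | omega
  case ree q =>
    obtain ⟨m, -, rfl⟩ := hg
    obtain ⟨a, ha⟩ := hch
    exact (three_pow_ne ha).elim
  case tf4 q =>
    have hf' : f₁ * 12 = f * 8 := hfM
    have h4 : 2 * 12 ≤ 6 * 12 := h2'
    clear h2' hch hY hfM
    first | exact trivial | exact Or.inl rfl | exact Or.inr rfl | exact rfl | omega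
  all_goals exact (show False from hch).elim

theorem elim8_12 {g : Grp} {f f₁ : ℕ} (hf : 1 ≤ f) (hf₁ : 1 ≤ f₁) (hg : Cond g) (hch : HasChar 2 g)
    (hfM : f₁ * Mg g = f * 12) (h2 : ag g * 12 ≤ 24 * Mg g) (h1 : ∃ x, Xg g x ∧ 8 * Mg g ∣ 12 * x)
    (hY : ∀ k, Yg g k → 3 ≤ f₁ * k → ¬ (2 = 2 ∧ f₁ * k = 6) → ∃ j, j ∈ [2, 6, 8, 12] ∧ 12 * k ∣ Mg g * j) : Out8' g := by
  have h2' : 2 * ag g ≤ 4 * Mg g := by omega
  clear h2
  obtain ⟨x, hx, hxd⟩ := h1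
  cases g
  case psl m q =>
    obtain ⟨hm, -, -⟩ := hg
    have hb := bd_psl (ρ := 4) (by omega) h2'
    have hf' : f₁ * m = f * 12 := hfM
    have hx' : 1 ≤ x ∧ x ≤ m := hx
    have hxd' : 8 * m ∣ 12 * x := hxd
    have hY3 : 3 ≤ m → 3 ≤ f₁ * 3 → f₁ * 3 ≠ 6 → 36 ∣ m * 2 ∨ 36 ∣ m * 6 ∨ 36 ∣ m * 8 ∨ 36 ∣ m * 12 := by
      intro h ha hb
      obtain ⟨j, hj, hjd⟩ := hY 3 (show 2 ≤ 3 ∧ 3 ≤ m from ⟨by norm_num, h⟩) ha (fun hh => hb hh.2)
      have hjd' : 12 * 3 ∣ m * j := hjd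
      simp only [List.mem_cons, List.not_mem_nil, or_false] at hj
      norm_num only at hjd'
      rcases hj with rfl | rfl | rfl | rfl <;> simp only [hjd', true_or, or_true]
    have hY4 : 4 ≤ m → 3 ≤ f₁ * 4 → f₁ * 4 ≠ 6 → 48 ∣ m * 2 ∨ 48 ∣ m * 6 ∨ 48 ∣ m * 8 ∨ 48 ∣ m * 12 := by
      intro h ha hb
      obtain ⟨j, hj, hjd⟩ := hY 4 (show 2 ≤ 4 ∧ 4 ≤ m from ⟨by norm_num, h⟩) ha (fun hh => hb hh.2)
      have hjd' : 12 * 4 ∣ m * j := hjd
      simp only [List.mem_cons, List.not_mem_nil, or_false] at hj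
      norm_num only at hjd'
      rcases hj with rfl | rfl | rfl | rfl <;> simp only [hjd', true_or, or_true]
    clear hx hxd h2' hch hY hfM
    interval_cases m <;> first | exact trivial | exact Or.inl rfl | exact Or.inr rfl | exact rfl | omega
  case psp m q =>
    obtain ⟨hm, -, -⟩ := hg
    have hb := bd_psp (ρ := 4) (by omega) h2'
    have hf' : f₁ * (2 * m) = f * 12 := hfM
    have hx' : 1 ≤ x ∧ x ≤ 2 * m ∧ 2 ∣ x := hx
    have hxd' : 8 * (2 * m) ∣ 12 * x := hxd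
    have hY6 : 6 ≤ 2 * m → 3 ≤ f₁ * 6 → f₁ * 6 ≠ 6 → 72 ∣ (2 * m) * 2 ∨ 72 ∣ (2 * m) * 6 ∨ 72 ∣ (2 * m) * 8 ∨ 72 ∣ (2 * m) * 12 := by
      intro h ha hb
      obtain ⟨j, hj, hjd⟩ := hY 6 (show 1 ≤ 6 ∧ 6 ≤ 2 * m ∧ 2 ∣ 6 from ⟨by norm_num, h, by norm_num⟩) ha (fun hh => hb hh.2)
      have hjd' : 12 * 6 ∣ (2 * m) * j := hjd
      simp only [List.mem_cons, List.not_mem_nil, or_false] at hj
      norm_num only at hjd'
      rcases hj with rfl | rfl | rfl | rfl <;> simp only [hjd', true_or, or_true]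
    clear hx hxd h2' hch hY hfM
    interval_cases m <;> first | exact trivial | exact Or.inl rfl | exact Or.inr rfl | exact rfl | omega
  case oodd m q =>
    obtain ⟨-, ho, hp⟩ := hg
    obtain ⟨a, rfl⟩ := hch
    exact (not_odd_two_pow hp.two_le ho).elim
  case psu m q =>
    obtain ⟨hm, -, -⟩ := hg
    have hb := bd_psu (ρ := 4) hm h2'
    have hx' : (1 ≤ x ∧ x ≤ m ∧ 2 ∣ x) ∨ ∃ j, x = 2 * j ∧ j ≤ m ∧ j % 2 = 1 := hx
    obtain ⟨k, hk⟩ : ∃ k, k = (if m % 2 = 0 then m - 1 else m) := ⟨_, rfl⟩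
    have hk' : (m % 2 = 0 ∧ k = m - 1) ∨ (m % 2 = 1 ∧ k = m) := by
      rw [hk]
      split_ifs <;> omega
    have hM : Mg (.psu m q) = 2 * k := by rw [hk]; rfl
    have hf' : f₁ * (2 * k) = f * 12 := hM ▸ hfM
    have hxd' : 8 * (2 * k) ∣ 12 * x := hM ▸ hxd
    have hY4 : 4 ≤ m → 3 ≤ f₁ * 4 → f₁ * 4 ≠ 6 → 48 ∣ (2 * k) * 2 ∨ 48 ∣ (2 * k) * 6 ∨ 48 ∣ (2 * k) * 8 ∨ 48 ∣ (2 * k) * 12 := by
      intro h ha hb
      obtain ⟨j, hj, hjd⟩ := hY 4 (show 3 ≤ 4 ∧ ((4 ≤ m ∧ 4 % 2 = 0) ∨ ∃ j, 4 = 2 * j ∧ j ≤ m ∧ j % 2 = 1) from ⟨by norm_num, Or.inl ⟨h, rfl⟩⟩) ha (fun hh => hb hh.2)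
      have hjd' : 12 * 4 ∣ (2 * k) * j := hM ▸ hjd
      simp only [List.mem_cons, List.not_mem_nil, or_false] at hj
      norm_num only at hjd'
      rcases hj with rfl | rfl | rfl | rfl <;> simp only [hjd', true_or, or_true]
    have hY8 : 8 ≤ m → 3 ≤ f₁ * 8 → f₁ * 8 ≠ 6 → 96 ∣ (2 * k) * 2 ∨ 96 ∣ (2 * k) * 6 ∨ 96 ∣ (2 * k) * 8 ∨ 96 ∣ (2 * k) * 12 := by
      intro h ha hb
      obtain ⟨j, hj, hjd⟩ := hY 8 (show 3 ≤ 8 ∧ ((8 ≤ m ∧ 8 % 2 = 0) ∨ ∃ j, 8 = 2 * j ∧ j ≤ m ∧ j % 2 = 1) from ⟨by norm_num, Or.inl ⟨h, rfl⟩⟩) ha (fun hh => hb hh.2)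
      have hjd' : 12 * 8 ∣ (2 * k) * j := hM ▸ hjd
      simp only [List.mem_cons, List.not_mem_nil, or_false] at hj
      norm_num only at hjd'
      rcases hj with rfl | rfl | rfl | rfl <;> simp only [hjd', true_or, or_true]
    clear hx hxd h2' hch hY hfM hM hk
    rcases hk' with ⟨hk1, hk2⟩ | ⟨hk1, hk2⟩ <;> rcases hx' with hx' | ⟨j, rfl, hx'⟩ <;>
      interval_cases m <;> subst hk2 <;> first | exact trivial | exact Or.inl rfl | exact Or.inr rfl | exact rfl | omega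
  case oplus m q =>
    obtain ⟨hm, -⟩ := hg
    have hb := bd_oplus (ρ := 4) (by omega) h2'
    have hf' : f₁ * (2 * (m - 1)) = f * 12 := hfM
    have hx' : 1 ≤ x ∧ x ≤ 2 * (m - 1) ∧ (2 ∣ x ∨ x = m) := hx
    have hxd' : 8 * (2 * (m - 1)) ∣ 12 * x := hxd
    clear hx hxd h2' hch hY hfM
    interval_cases m <;> first | exact trivial | exact Or.inl rfl | exact Or.inr rfl | exact rfl | omega
  case ominus m q =>
    obtain ⟨hm, -⟩ := hg
    have hb := bd_ominus (ρ := 4) (by omega) h2'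
    have hf' : f₁ * (2 * m) = f * 12 := hfM
    have hx' : 1 ≤ x ∧ x ≤ 2 * m ∧ 2 ∣ x := hx
    have hxd' : 8 * (2 * m) ∣ 12 * x := hxd
    have hY4 : 4 ≤ 2 * m → 3 ≤ f₁ * 4 → f₁ * 4 ≠ 6 → 48 ∣ (2 * m) * 2 ∨ 48 ∣ (2 * m) * 6 ∨ 48 ∣ (2 * m) * 8 ∨ 48 ∣ (2 * m) * 12 := by
      intro h ha hb
      obtain ⟨j, hj, hjd⟩ := hY 4 (show 4 ≤ 4 ∧ 4 ≤ 2 * m ∧ 2 ∣ 4 from ⟨by norm_num, h, by norm_num⟩) ha (fun hh => hb hh.2)
      have hjd' : 12 * 4 ∣ (2 * m) * j := hjd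
      simp only [List.mem_cons, List.not_mem_nil, or_false] at hj
      norm_num only at hjd'
      rcases hj with rfl | rfl | rfl | rfl <;> simp only [hjd', true_or, or_true]
    have hY6 : 6 ≤ 2 * m → 3 ≤ f₁ * 6 → f₁ * 6 ≠ 6 → 72 ∣ (2 * m) * 2 ∨ 72 ∣ (2 * m) * 6 ∨ 72 ∣ (2 * m) * 8 ∨ 72 ∣ (2 * m) * 12 := by
      intro h ha hb
      obtain ⟨j, hj, hjd⟩ := hY 6 (show 4 ≤ 6 ∧ 6 ≤ 2 * m ∧ 2 ∣ 6 from ⟨by norm_num, h, by norm_num⟩) ha (fun hh => hb hh.2)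
      have hjd' : 12 * 6 ∣ (2 * m) * j := hjd
      simp only [List.mem_cons, List.not_mem_nil, or_false] at hj
      norm_num only at hjd'
      rcases hj with rfl | rfl | rfl | rfl <;> simp only [hjd', true_or, or_true]
    clear hx hxd h2' hch hY hfM
    interval_cases m <;> first | exact trivial | exact Or.inl rfl | exact Or.inr rfl | exact rfl | omega
  case g2 q =>
    have hf' : f₁ * 6 = f * 12 := hfM
    have h4 : 2 * 6 ≤ 4 * 6 := h2'
    have hx' : x ∈ [2, 6] := hx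
    have hxd' : 8 * 6 ∣ 12 * x := hxd
    simp only [List.mem_cons, List.not_mem_nil, or_false] at hx'
    clear hx hxd h2' hch hY hfM
    first | exact trivial | exact Or.inl rfl | exact Or.inr rfl | exact rfl | omega
  case f4 q =>
    have hf' : f₁ * 12 = f * 12 := hfM
    have h4 : 2 * 24 ≤ 4 * 12 := h2'
    have hx' : x ∈ [2, 6, 8, 12] := hx
    have hxd' : 8 * 12 ∣ 12 * x := hxd
    simp only [List.mem_cons, List.not_mem_nil, or_false] at hx'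
    clear hx hxd h2' hch hY hfM
    first | exact trivial | exact Or.inl rfl | exact Or.inr rfl | exact rfl | omega
  case e6 q =>
    have hf' : f₁ * 12 = f * 12 := hfM
    have h4 : 2 * 36 ≤ 4 * 12 := h2'
    have hx' : x ∈ [2, 5, 6, 8, 9, 12] := hx
    have hxd' : 8 * 12 ∣ 12 * x := hxd
    simp only [List.mem_cons, List.not_mem_nil, or_false] at hx'
    clear hx hxd h2' hch hY hfM
    first | exact trivial | exact Or.inl rfl | exact Or.inr rfl | exact rfl | omega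
  case e7 q =>
    have hf' : f₁ * 18 = f * 12 := hfM
    have h4 : 2 * 63 ≤ 4 * 18 := h2'
    have hx' : x ∈ [2, 6, 8, 10, 12, 14, 18] := hx
    have hxd' : 8 * 18 ∣ 12 * x := hxd
    simp only [List.mem_cons, List.not_mem_nil, or_false] at hx'
    clear hx hxd h2' hch hY hfM
    first | exact trivial | exact Or.inl rfl | exact Or.inr rfl | exact rfl | omega
  case e8 q =>
    have hf' : f₁ * 30 = f * 12 := hfM
    have h4 : 2 * 120 ≤ 4 * 30 := h2'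
    have hx' : x ∈ [2, 8, 12, 14, 18, 20, 24, 30] := hx
    have hxd' : 8 * 30 ∣ 12 * x := hxd
    simp only [List.mem_cons, List.not_mem_nil, or_false] at hx'
    clear hx hxd h2' hch hY hfM
    first | exact trivial | exact Or.inl rfl | exact Or.inr rfl | exact rfl | omega
  case te6 q =>
    have hf' : f₁ * 18 = f * 12 := hfM
    have h4 : 2 * 36 ≤ 4 * 18 := h2'
    have hx' : x ∈ [2, 10, 6, 8, 18, 12] := hx
    have hxd' : 8 * 18 ∣ 12 * x := hxd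
    simp only [List.mem_cons, List.not_mem_nil, or_false] at hx'
    have hY8 : 3 ≤ f₁ * 8 → f₁ * 8 ≠ 6 → 96 ∣ 18 * 2 ∨ 96 ∣ 18 * 6 ∨ 96 ∣ 18 * 8 ∨ 96 ∣ 18 * 12 := by
      intro ha hb
      obtain ⟨j, hj, hjd⟩ := hY 8 (show 8 ∈ [2, 3, 4, 6, 8, 10, 12, 18] by decide) ha (fun hh => hb hh.2)
      have hjd' : 12 * 8 ∣ 18 * j := hjd
      simp only [List.mem_cons, List.not_mem_nil, or_false] at hj
      norm_num only at hjd'
      rcases hj with rfl | rfl | rfl | rfl <;> simp only [hjd', true_or, or_true]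
    clear hx hxd h2' hch hY hfM
    first | exact trivial | exact Or.inl rfl | exact Or.inr rfl | exact rfl | omega
  case td4 q =>
    have hf' : f₁ * 12 = f * 12 := hfM
    have h4 : 2 * 12 ≤ 4 * 12 := h2'
    have hx' : x ∈ [2, 6, 12] := hx
    have hxd' : 8 * 12 ∣ 12 * x := hxd
    simp only [List.mem_cons, List.not_mem_nil, or_false] at hx'
    clear hx hxd h2' hch hY hfM
    first | exact trivial | exact Or.inl rfl | exact Or.inr rfl | exact rfl | omega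
  case sz q =>
    have hf' : f₁ * 4 = f * 12 := hfM
    have h4 : 2 * 2 ≤ 4 * 4 := h2'
    have hx' : x ∈ [1, 4] := hx
    have hxd' : 8 * 4 ∣ 12 * x := hxd
    simp only [List.mem_cons, List.not_mem_nil, or_false] at hx'
    clear hx hxd h2' hch hY hfM
    first | exact trivial | exact Or.inl rfl | exact Or.inr rfl | exact rfl | omega
  case ree q =>
    obtain ⟨m, -, rfl⟩ := hg
    obtain ⟨a, ha⟩ := hch
    exact (three_pow_ne ha).elim
  case tf4 q =>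
    have hf' : f₁ * 12 = f * 12 := hfM
    have h4 : 2 * 12 ≤ 4 * 12 := h2'
    have hx' : x ∈ [1, 6, 4, 12] := hx
    have hxd' : 8 * 12 ∣ 12 * x := hxd
    simp only [List.mem_cons, List.not_mem_nil, or_false] at hx'
    clear hx hxd h2' hch hY hfM
    first | exact trivial | exact Or.inl rfl | exact Or.inr rfl | exact rfl | omega
  all_goals exact (show False from hch).elim

end Cfsg.Agent.H351.CovF4
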