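import Cfsg.Agent.H351.CovF4.Elim
import Cfsg.Agent.H351.CovF4.CountZ

/-!
# The orders as integers, even `Q` (helper351, for S2499)
-/

set_option autoImplicit false
set_option maxHeartbeats 1000000

namespace Cfsg.Agent.H351.CovF4

open Cfsg.Agent.OrdDiv Cfsg.Agent.H436 Cfsg.Agent.H915.GN Cfsg.Agent.H264.GN Cfsg.Agent.H264.FKS Cfsg.Agent.H325.Same

theorem cs {q : ℕ} (hq : 1 ≤ q) (d : ℕ) : ((q ^ d - 1 : ℕ) : ℤ) = (q : ℤ) ^ d - 1 := by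
  rw [Nat.cast_sub (Nat.one_le_pow _ _ hq)]
  push_cast
  rfl

theorem cs1 {q : ℕ} (hq : 1 ≤ q) : ((q - 1 : ℕ) : ℤ) = (q : ℤ) - 1 := by
  rw [Nat.cast_sub hq]
  rfl

theorem cg {q : ℕ} (hq : 1 ≤ q) {i n : ℕ} (h : i ≤ n) : ((q ^ n - q ^ i : ℕ) : ℤ) = (q : ℤ) ^ n - (q : ℤ) ^ i := by
  rw [Nat.cast_sub (Nat.pow_le_pow_right hq h)]
  push_cast
  rfl

theorem n12 {n : ℕ} (h : n ∣ 12) : n = 1 ∨ n = 2 ∨ n = 3 ∨ n = 4 ∨ n = 6 ∨ n = 12 := by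
  have := Nat.le_of_dvd (by norm_num) h
  interval_cases n <;> omega

theorem n8 {n : ℕ} (h : n ∣ 8) : n = 1 ∨ n = 2 ∨ n = 4 ∨ n = 8 := by
  have := Nat.le_of_dvd (by norm_num) h
  interval_cases n <;> omega

/-- `q = 2` or `q ≥ 4` -/
theorem two_or {f : ℕ} (hf : 1 ≤ f) : 2 ^ f = 2 ∨ 4 ≤ 2 ^ f := by
  rcases Nat.eq_or_lt_of_le hf with rfl | h
  · exact Or.inl rfl
  · exact Or.inr (by
      calc 4 = 2 ^ 2 := by norm_num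
        _ ≤ 2 ^ f := Nat.pow_le_pow_right (by norm_num) h)

theorem gcd_one {a b : ℕ} (hb : Odd b) (hab : a = 2 ∨ a = 4) : Nat.gcd a b = 1 := by
  have h2 : Nat.Coprime 2 b :=
    (Nat.Prime.coprime_iff_not_dvd Nat.prime_two).2 (fun h => (Nat.not_even_iff_odd.2 hb) (even_iff_two_dvd.2 h))
  rcases hab with rfl | rfl
  · exact h2
  · exact Nat.Coprime.pow_left 2 h2

theorem odd_sub {Q : ℕ} (h : Even Q) (h1 : 1 ≤ Q) : Odd (Q - 1) := by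
  obtain ⟨k, rfl⟩ := h
  exact ⟨k - 1, by omega⟩

theorem gcd_three (b : ℕ) : Nat.gcd 3 b = 1 ∨ Nat.gcd 3 b = 3 := by
  have h1 : Nat.gcd 3 b ∣ 3 := Nat.gcd_dvd_left _ _
  exact (Nat.dvd_prime Nat.prime_three).1 h1

section

variable {Q c : ℕ} (hQ : 2 ≤ Q) (hev : Even Q)

include hQ hev

theorem z_psl2 (h : den (.psl 2 Q) * c = num (.psl 2 Q)) : (c : ℤ) = (Q : ℤ) * ((Q : ℤ) ^ 2 - 1) := by
  have h' : Nat.gcd 2 (Q - 1) * (Q - 1) * c = (Q ^ 2 - Q ^ 0) * ((Q ^ 2 - Q ^ 1) * 1) := h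
  rw [gcd_one (odd_sub hev (by omega)) (Or.inl rfl), one_mul, mul_one] at h'
  have h2 := congrArg (fun x : ℕ => (x : ℤ)) h'
  simp only [Nat.cast_mul, cs1 (show 1 ≤ Q by omega), cg (show 1 ≤ Q by omega) (show 0 ≤ 2 by norm_num),
    cg (show 1 ≤ Q by omega) (show 1 ≤ 2 by norm_num)] at h2
  have hQ' : ((Q : ℤ) - 1) ≠ 0 := by
    have : (2 : ℤ) ≤ Q := by exact_mod_cast hQ
    omega
  apply mul_left_cancel₀ hQ'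
  rw [h2]
  ring

omit hev in
theorem z_psl3 (h : den (.psl 3 Q) * c = num (.psl 3 Q)) : ∃ D : ℤ, (D = 1 ∨ D = 3) ∧
    D * (c : ℤ) = (Q : ℤ) ^ 3 * (((Q : ℤ) ^ 2 - 1) * ((Q : ℤ) ^ 3 - 1)) := by
  have h' : Nat.gcd 3 (Q - 1) * (Q - 1) * c = (Q ^ 3 - Q ^ 0) * ((Q ^ 3 - Q ^ 1) * ((Q ^ 3 - Q ^ 2) * 1)) := h
  rw [mul_one] at h'
  have h2 := congrArg (fun x : ℕ => (x : ℤ)) h'
  simp only [Nat.cast_mul, cs1 (show 1 ≤ Q by omega), cg (show 1 ≤ Q by omega) (show 0 ≤ 3 by norm_num),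
    cg (show 1 ≤ Q by omega) (show 1 ≤ 3 by norm_num), cg (show 1 ≤ Q by omega) (show 2 ≤ 3 by norm_num)] at h2
  have hQ' : ((Q : ℤ) - 1) ≠ 0 := by
    have : (2 : ℤ) ≤ Q := by exact_mod_cast hQ
    omega
  refine ⟨(Nat.gcd 3 (Q - 1) : ℕ), ?_, ?_⟩
  · rcases gcd_three (Q - 1) with h | h
    · exact Or.inl (by rw [h]; rfl)
    · exact Or.inr (by rw [h]; rfl)
  · apply mul_left_cancel₀ hQ'
    linear_combination h2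

theorem z_psl4 (h : den (.psl 4 Q) * c = num (.psl 4 Q)) :
    (c : ℤ) = (Q : ℤ) ^ 6 * (((Q : ℤ) ^ 2 - 1) * (((Q : ℤ) ^ 3 - 1) * ((Q : ℤ) ^ 4 - 1))) := by
  have h' : Nat.gcd 4 (Q - 1) * (Q - 1) * c =
    (Q ^ 4 - Q ^ 0) * ((Q ^ 4 - Q ^ 1) * ((Q ^ 4 - Q ^ 2) * ((Q ^ 4 - Q ^ 3) * 1))) := h
  rw [gcd_one (odd_sub hev (by omega)) (Or.inr rfl), one_mul, mul_one] at h'
  have h2 := congrArg (fun x : ℕ => (x : ℤ)) h'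
  simp only [Nat.cast_mul, cs1 (show 1 ≤ Q by omega), cg (show 1 ≤ Q by omega) (show 0 ≤ 4 by norm_num),
    cg (show 1 ≤ Q by omega) (show 1 ≤ 4 by norm_num), cg (show 1 ≤ Q by omega) (show 2 ≤ 4 by norm_num),
    cg (show 1 ≤ Q by omega) (show 3 ≤ 4 by norm_num)] at h2
  have hQ' : ((Q : ℤ) - 1) ≠ 0 := by
    have : (2 : ℤ) ≤ Q := by exact_mod_cast hQ
    omega
  apply mul_left_cancel₀ hQ'
  linear_combination h2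

theorem z_psp2 (h : den (.psp 2 Q) * c = num (.psp 2 Q)) :
    (c : ℤ) = (Q : ℤ) ^ 4 * (((Q : ℤ) ^ 2 - 1) * ((Q : ℤ) ^ 4 - 1)) := by
  have h' : Nat.gcd 2 (Q - 1) * c = Q ^ (2 ^ 2) * ((Q ^ 2 - 1) * ((Q ^ 4 - 1) * 1)) := h
  rw [gcd_one (odd_sub hev (by omega)) (Or.inl rfl), one_mul, mul_one] at h'
  rw [h']
  simp only [Nat.cast_mul, cs (show 1 ≤ Q by omega), Nat.cast_pow]
  norm_num

theorem z_psp4 (h : den (.psp 4 Q) * c = num (.psp 4 Q)) :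
    (c : ℤ) = (Q : ℤ) ^ 16 * (((Q : ℤ) ^ 2 - 1) * (((Q : ℤ) ^ 4 - 1) * (((Q : ℤ) ^ 6 - 1) * ((Q : ℤ) ^ 8 - 1)))) := by
  have h' : Nat.gcd 2 (Q - 1) * c =
    Q ^ (4 ^ 2) * ((Q ^ 2 - 1) * ((Q ^ 4 - 1) * ((Q ^ 6 - 1) * ((Q ^ 8 - 1) * 1)))) := h
  rw [gcd_one (odd_sub hev (by omega)) (Or.inl rfl), one_mul, mul_one] at h'
  rw [h']
  simp only [Nat.cast_mul, cs (show 1 ≤ Q by omega), Nat.cast_pow]
  norm_num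

omit hev in
theorem z_psu3 (h : den (.psu 3 Q) * c = num (.psu 3 Q)) : ∃ D : ℤ, (D = 1 ∨ D = 3) ∧ (¬ 3 ∣ Q + 1 → D = 1) ∧
    D * (c : ℤ) = (Q : ℤ) ^ 3 * (((Q : ℤ) ^ 2 - 1) * ((Q : ℤ) ^ 3 + 1)) := by
  have h' : Nat.gcd 3 (Q + 1) * (Q + 1) * c = Q ^ 3 * ((Q ^ 1 + 1) * ((Q ^ 2 - 1) * ((Q ^ 3 + 1) * 1))) := h
  rw [mul_one] at h'
  have h2 := congrArg (fun x : ℕ => (x : ℤ)) h'
  simp only [Nat.cast_mul, Nat.cast_add, Nat.cast_one, cs (show 1 ≤ Q by omega), Nat.cast_pow] at h2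
  have hQ' : ((Q : ℤ) + 1) ≠ 0 := by omega
  refine ⟨(Nat.gcd 3 (Q + 1) : ℕ), ?_, ?_, ?_⟩
  · rcases gcd_three (Q + 1) with h | h
    · exact Or.inl (by rw [h]; rfl)
    · exact Or.inr (by rw [h]; rfl)
  · intro h3
    have := (Nat.Prime.coprime_iff_not_dvd Nat.prime_three).2 h3
    rw [Nat.coprime_iff_gcd_eq_one] at this
    rw [this]
    rfl
  · apply mul_left_cancel₀ hQ'
    linear_combination h2

theorem z_ominus4 (h : den (.ominus 4 Q) * c = num (.ominus 4 Q)) :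
    (c : ℤ) = (Q : ℤ) ^ 12 * (((Q : ℤ) ^ 4 + 1) * (((Q : ℤ) ^ 2 - 1) * (((Q : ℤ) ^ 4 - 1) * ((Q : ℤ) ^ 6 - 1)))) := by
  have h' : Nat.gcd 4 (Q ^ 4 + 1) * c =
    Q ^ 12 * ((Q ^ 4 + 1) * ((Q ^ 2 - 1) * ((Q ^ 4 - 1) * ((Q ^ 6 - 1) * 1)))) := h
  rw [gcd_one (hev.pow_of_ne_zero (by norm_num)).add_one (Or.inr rfl), one_mul, mul_one] at h'
  rw [h']
  simp only [Nat.cast_mul, cs (show 1 ≤ Q by omega), Nat.cast_pow, Nat.cast_add, Nat.cast_one]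

theorem z_oplus5 (h : den (.oplus 5 Q) * c = num (.oplus 5 Q)) :
    (c : ℤ) = (Q : ℤ) ^ 20 * (((Q : ℤ) ^ 5 - 1) * (((Q : ℤ) ^ 2 - 1) * (((Q : ℤ) ^ 4 - 1) * (((Q : ℤ) ^ 6 - 1) *
      ((Q : ℤ) ^ 8 - 1))))) := by
  have h' : Nat.gcd 4 (Q ^ 5 - 1) * c =
    Q ^ 20 * ((Q ^ 5 - 1) * ((Q ^ 2 - 1) * ((Q ^ 4 - 1) * ((Q ^ 6 - 1) * ((Q ^ 8 - 1) * 1))))) := h
  rw [gcd_one (odd_sub (hev.pow_of_ne_zero (by norm_num)) (Nat.one_le_pow _ _ (by omega))) (Or.inr rfl), one_mul,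
    mul_one] at h'
  rw [h']
  simp only [Nat.cast_mul, cs (show 1 ≤ Q by omega), Nat.cast_pow]

omit hev in
theorem z_g2 (h : den (.g2 Q) * c = num (.g2 Q)) :
    (c : ℤ) = (Q : ℤ) ^ 6 * (((Q : ℤ) ^ 2 - 1) * ((Q : ℤ) ^ 6 - 1)) := by
  have h' : 1 * c = Q ^ 6 * ((Q ^ 2 - 1) * (Q ^ 6 - 1)) := h
  rw [one_mul] at h'
  rw [h']
  simp only [Nat.cast_mul, cs (show 1 ≤ Q by omega), Nat.cast_pow]

omit hev in
theorem z_td4 (h : den (.td4 Q) * c = num (.td4 Q)) :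
    (c : ℤ) = (Q : ℤ) ^ 12 * (((Q : ℤ) ^ 2 - 1) * ((Q : ℤ) ^ 6 - 1) * ((Q : ℤ) ^ 8 + (Q : ℤ) ^ 4 + 1)) := by
  have h' : 1 * c = Q ^ 12 * ((Q ^ 2 - 1) * (Q ^ 6 - 1) * (Q ^ 8 + Q ^ 4 + 1)) := h
  rw [one_mul] at h'
  rw [h']
  simp only [Nat.cast_mul, cs (show 1 ≤ Q by omega), Nat.cast_pow, Nat.cast_add, Nat.cast_one]

omit hev in
theorem z_sz (h : den (.sz Q) * c = num (.sz Q)) :
    (c : ℤ) = (Q : ℤ) ^ 2 * (((Q : ℤ) - 1) * ((Q : ℤ) ^ 2 + 1)) := by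
  have h' : 1 * c = Q ^ 2 * ((Q - 1) * (Q ^ 2 + 1)) := h
  rw [one_mul] at h'
  rw [h']
  simp only [Nat.cast_mul, cs1 (show 1 ≤ Q by omega), Nat.cast_pow, Nat.cast_add, Nat.cast_one]

omit hev in
theorem z_tf4 (h : den (.tf4 Q) * c = num (.tf4 Q)) :
    (c : ℤ) = (Q : ℤ) ^ 12 * (((Q : ℤ) - 1) * ((Q : ℤ) ^ 3 + 1) * ((Q : ℤ) ^ 4 - 1) * ((Q : ℤ) ^ 6 + 1)) := by
  have h' : 1 * c = Q ^ 12 * ((Q - 1) * (Q ^ 3 + 1) * (Q ^ 4 - 1) * (Q ^ 6 + 1)) := h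
  rw [one_mul] at h'
  rw [h']
  simp only [Nat.cast_mul, cs (show 1 ≤ Q by omega), cs1 (show 1 ≤ Q by omega), Nat.cast_pow, Nat.cast_add, Nat.cast_one]

end

end Cfsg.Agent.H351.CovF4
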